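import Mathlib
import Cfsg.Agent.HH.Wt
import Cfsg.Agent.HH.TArg
import Cfsg.Agent.Cop.Basic
import Cfsg.Agent.Cop.GenAb
import Cfsg.Agent.SigF.Gen
import Cfsg.Agent.H23.FrobAct

set_option autoImplicit false

/-!
Ward's theorem, the representation-theoretic part.
-/

namespace Cfsg.Agent.HH

open Module
open scoped BigOperators commutatorElement

universe u v w

section

variable {G : Type u} [Group G]

theorem elem_order {p : ℕ} [hp : Fact p.Prime] {A : Subgroup G} (hA : IsElementaryAbelian p A) {b : G}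
    (hb : b ∈ A) (hb1 : b ≠ 1) : orderOf b = p := orderOf_eq_prime (hA.2 b hb) hb1

theorem elem_mem_zpowers {p : ℕ} [hp : Fact p.Prime] {A : Subgroup G} (hA : IsElementaryAbelian p A) {b c : G}
    (hb : b ∈ A) (hc : c ∈ Subgroup.zpowers b) (hc1 : c ≠ 1) : b ∈ Subgroup.zpowers c := by
  have hb1 : b ≠ 1 := by
    rintro rfl
    rw [Subgroup.zpowers_one_eq_bot, Subgroup.mem_bot] at hc
    exact hc1 hc
  have h1 : Nat.card (Subgroup.zpowers b) = p := by rw [Nat.card_zpowers, elem_order hA hb hb1]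
  have h2 : (⟨b, Subgroup.mem_zpowers b⟩ : Subgroup.zpowers b) ∈ Subgroup.zpowers (⟨c, hc⟩ : Subgroup.zpowers b) :=
    mem_zpowers_of_prime_card h1 (fun h => hc1 (congrArg Subtype.val h))
  obtain ⟨k, hk⟩ := Subgroup.mem_zpowers_iff.1 h2
  exact Subgroup.mem_zpowers_iff.2 ⟨k, congrArg Subtype.val hk⟩

theorem elem_le_of_mem [Finite G] {p : ℕ} [hp : Fact p.Prime] {A : Subgroup G} (hA : IsElementaryAbelian p A)
    (hA2 : Nat.card A = p ^ 2) {a b : G} (ha : a ∈ A) (ha1 : a ≠ 1) (hb : b ∈ A) (hb1 : b ∉ Subgroup.zpowers a)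
    {T : Subgroup G} (haT : a ∈ T) (hbT : b ∈ T) : A ≤ T := by
  set B := Subgroup.zpowers a ⊔ Subgroup.zpowers b with hB
  have hBA : B ≤ A := sup_le ((Subgroup.zpowers_le).2 ha) ((Subgroup.zpowers_le).2 hb)
  have hBT : B ≤ T := sup_le ((Subgroup.zpowers_le).2 haT) ((Subgroup.zpowers_le).2 hbT)
  have h1 : Nat.card B ∣ p ^ 2 := hA2 ▸ Subgroup.card_dvd_of_le hBA
  obtain ⟨k, hk, hk'⟩ := (Nat.dvd_prime_pow hp.out).1 h1
  have h2 : Subgroup.zpowers a < B := by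
    refine lt_of_le_of_ne le_sup_left (fun h => hb1 ?_)
    rw [h]
    exact (le_sup_right : Subgroup.zpowers b ≤ B) (Subgroup.mem_zpowers b)
  have h3 : Nat.card (Subgroup.zpowers a) < Nat.card B := by
    apply lt_of_le_of_ne (Subgroup.card_le_of_le h2.le)
    intro h
    exact h2.ne (Subgroup.eq_of_le_of_card_ge h2.le h.ge)
  rw [Nat.card_zpowers, elem_order hA ha ha1, hk'] at h3
  have h4 : 1 < k := by
    by_contra h5
    have : k ≤ 1 := by omega
    exact absurd h3 (not_lt.2 ((Nat.pow_le_pow_right hp.out.pos this).trans (pow_one p).le))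
  have h5 : k = 2 := by omega
  have h6 : B = A := Subgroup.eq_of_le_of_card_ge hBA (by rw [hA2, hk', h5])
  exact h6 ▸ hBT

end

variable {K : Type w} [Field K] {V : Type v} [AddCommGroup V] [Module K V]
variable {G : Type u} [Group G] {ρ : Representation K G V}

theorem exists_nofix_norm (ρ : Representation K G V) (Q : Subgroup G) [Finite Q]
    (hQK : (Nat.card Q : K) ≠ 0) (hnt : ∃ g ∈ Q, ρ g ≠ 1) :
    ∃ W : Submodule K V, W ≠ ⊥ ∧ (∀ g ∈ Subgroup.normalizer (Q : Set G), ∀ w ∈ W, ρ g w ∈ W) ∧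
      ∀ w ∈ W, (∀ g ∈ Q, ρ g w = w) → w = 0 := by
  classical
  haveI := Fintype.ofFinite Q
  set e : Module.End K V := ∑ g : Q, ρ (g : G) with he
  have heQ : ∀ k ∈ Q, e * ρ k = e := by
    intro k hk
    rw [he, Finset.sum_mul]
    conv_rhs => rw [← Equiv.sum_comp (Equiv.mulRight (⟨k, hk⟩ : Q))]
    apply Finset.sum_congr rfl
    intro g _
    rw [← map_mul]; rfl
  have hey : ∀ y ∈ Subgroup.normalizer (Q : Set G), e * ρ y = ρ y * e := by
    intro y hy
    have hyQ : ∀ g ∈ Q, y * g * y⁻¹ ∈ Q := fun g hg => (Subgroup.mem_normalizer_iff.1 hy g).1 hg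
    have hyQ' : ∀ g ∈ Q, y⁻¹ * g * y ∈ Q := fun g hg => (Subgroup.mem_normalizer_iff''.1 hy g).1 hg
    let f : Q ≃ Q :=
      { toFun := fun g => ⟨y * g * y⁻¹, hyQ g g.2⟩
        invFun := fun g => ⟨y⁻¹ * g * y, hyQ' g g.2⟩
        left_inv := fun g => Subtype.ext (by change y⁻¹ * (y * (g : G) * y⁻¹) * y = g; group)
        right_inv := fun g => Subtype.ext (by change y * (y⁻¹ * (g : G) * y) * y⁻¹ = g; group) }
    rw [he, Finset.sum_mul, Finset.mul_sum, ← Equiv.sum_comp f]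
    apply Finset.sum_congr rfl
    intro g _
    rw [← map_mul, ← map_mul]
    congr 1
    change y * (g : G) * y⁻¹ * y = y * g
    group
  refine ⟨LinearMap.ker e, ?_, ?_, ?_⟩
  · intro h0
    obtain ⟨g, hg, hne⟩ := hnt
    apply hne
    have h1 : e * (ρ g - 1) = 0 := by rw [mul_sub, heQ g hg, mul_one, sub_self]
    have h2 : ρ g - 1 = 0 := by
      apply LinearMap.ext
      intro v
      have h3 : (ρ g - 1) v ∈ LinearMap.ker e := by
        rw [LinearMap.mem_ker]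
        exact LinearMap.congr_fun h1 v
      rw [h0, Submodule.mem_bot] at h3
      exact h3
    exact sub_eq_zero.1 h2
  · intro g hg w hw
    rw [LinearMap.mem_ker] at hw ⊢
    have h1 := LinearMap.congr_fun (hey g hg) w
    rw [Module.End.mul_apply, Module.End.mul_apply, hw, map_zero] at h1
    exact h1
  · intro w hw hfix
    rw [LinearMap.mem_ker, he, LinearMap.sum_apply, Finset.sum_congr rfl (fun (g : Q) _ => hfix g g.2),
      Finset.sum_const, Finset.card_univ, ← Nat.card_eq_fintype_card, ← Nat.cast_smul_eq_nsmul K] at hw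
    rcases smul_eq_zero.1 hw with h | h
    · exact absurd h hQK
    · exact h

/-- the stabilizer of a weight -/
def stabW (Z : Subgroup G) (μ : G → K) : Subgroup G where
  carrier := {h | h ∈ Subgroup.normalizer (Z : Set G) ∧ ∀ z ∈ Z, μ (h⁻¹ * z * h) = μ z}
  one_mem' := ⟨Subgroup.one_mem _, fun z _ => by simp⟩
  mul_mem' := by
    rintro a b ⟨ha, ha'⟩ ⟨hb, hb'⟩
    refine ⟨Subgroup.mul_mem _ ha hb, fun z hz => ?_⟩
    have h1 : (a * b)⁻¹ * z * (a * b) = b⁻¹ * (a⁻¹ * z * a) * b := by group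
    rw [h1, hb' _ ((Subgroup.mem_normalizer_iff''.1 ha z).1 hz), ha' z hz]
  inv_mem' := by
    rintro a ⟨ha, ha'⟩
    refine ⟨Subgroup.inv_mem _ ha, fun z hz => ?_⟩
    have h1 := ha' (a * z * a⁻¹) ((Subgroup.mem_normalizer_iff.1 ha z).1 hz)
    have h2 : a⁻¹ * (a * z * a⁻¹) * a = z := by group
    have h3 : a⁻¹⁻¹ * z * a⁻¹ = a * z * a⁻¹ := by group
    rw [h2] at h1
    rw [h3, ← h1]

theorem mem_stabW {Z : Subgroup G} {μ : G → K} {h : G} :
    h ∈ stabW Z μ ↔ h ∈ Subgroup.normalizer (Z : Set G) ∧ ∀ z ∈ Z, μ (h⁻¹ * z * h) = μ z := Iff.rfl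

theorem mem_stabW_conj {Z : Subgroup G} {μ : G → K} {h x : G} (hx : x ∈ Subgroup.normalizer (Z : Set G)) :
    h ∈ stabW Z (fun z => μ (x⁻¹ * z * x)) ↔ x⁻¹ * h * x ∈ stabW Z μ := by
  rw [mem_stabW, mem_stabW]
  constructor
  · rintro ⟨h1, h2⟩
    refine ⟨Subgroup.mul_mem _ (Subgroup.mul_mem _ (Subgroup.inv_mem _ hx) h1) hx, fun z hz => ?_⟩
    have h3 := h2 (x * z * x⁻¹) ((Subgroup.mem_normalizer_iff.1 hx z).1 hz)
    have h4 : x⁻¹ * (h⁻¹ * (x * z * x⁻¹) * h) * x = (x⁻¹ * h * x)⁻¹ * z * (x⁻¹ * h * x) := by group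
    have h5 : x⁻¹ * (x * z * x⁻¹) * x = z := by group
    rw [h4, h5] at h3
    exact h3
  · rintro ⟨h1, h2⟩
    refine ⟨?_, fun z hz => ?_⟩
    · have h3 := Subgroup.mul_mem _ (Subgroup.mul_mem _ hx h1) (Subgroup.inv_mem _ hx)
      have h4 : x * (x⁻¹ * h * x) * x⁻¹ = h := by group
      rwa [h4] at h3
    · have h3 := h2 (x⁻¹ * z * x) ((Subgroup.mem_normalizer_iff''.1 hx z).1 hz)
      have h4 : (x⁻¹ * h * x)⁻¹ * (x⁻¹ * z * x) * (x⁻¹ * h * x) = x⁻¹ * (h⁻¹ * z * h) * x := by group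
      rw [h4] at h3
      exact h3

theorem orbit_indep {Z B : Subgroup G} [Finite B] {μ : G → K} (hBZ : B ≤ Subgroup.normalizer (Z : Set G))
    (hB : B ⊓ stabW Z μ = ⊥) (w : G → V) (hw : ∀ β ∈ B, ∀ z ∈ Z, ρ z (w β) = μ z • w β) [Fintype B]
    (hs : ∑ β : B, ρ β (w β) = 0) : ∀ β ∈ B, w β = 0 := by
  classical
  have h1 := indep_weights (fun z : Z => ρ (z : G)) (fun (β : B) (z : Z) => μ ((β : G)⁻¹ * z * β)) Finset.univ
    (fun β : B => ρ β (w β)) (by
      intro i _ j _ hij heq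
      apply hij
      have h2 : (i : G)⁻¹ * j ∈ B ⊓ stabW Z μ := by
        refine ⟨B.mul_mem (B.inv_mem i.2) j.2, ?_⟩
        have hij' : (i : G)⁻¹ * j ∈ Subgroup.normalizer (Z : Set G) := hBZ (B.mul_mem (B.inv_mem i.2) j.2)
        refine ⟨hij', fun z hz => ?_⟩
        have h3 := congrFun heq ⟨(i : G) * z * (i : G)⁻¹, (Subgroup.mem_normalizer_iff.1 (hBZ i.2) z).1 hz⟩
        have h4 : μ ((i : G)⁻¹ * ((i : G) * z * (i : G)⁻¹) * i) = μ ((j : G)⁻¹ * ((i : G) * z * (i : G)⁻¹) * j) := h3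
        have h5 : (i : G)⁻¹ * ((i : G) * z * (i : G)⁻¹) * i = z := by group
        have h6 : (j : G)⁻¹ * ((i : G) * z * (i : G)⁻¹) * j = ((i : G)⁻¹ * j)⁻¹ * z * ((i : G)⁻¹ * j) := by group
        rw [h5, h6] at h4
        exact h4.symm
      rw [hB, Subgroup.mem_bot, inv_mul_eq_one] at h2
      exact Subtype.ext h2) (by
      intro i _ z
      have h2 : ρ (z : G) (ρ (i : G) (w i)) = ρ (i : G) (ρ ((i : G)⁻¹ * z * i) (w i)) := by
        rw [← rho_mul, ← rho_mul]; congr 2; group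
      rw [h2, hw i i.2 _ ((Subgroup.mem_normalizer_iff''.1 (hBZ i.2) z).1 z.2), map_smul]) hs
  intro β hβ
  have h2 := h1 ⟨β, hβ⟩ (Finset.mem_univ _)
  have h3 : ρ β⁻¹ (ρ β (w β)) = w β := by rw [← rho_mul, inv_mul_cancel, map_one]; rfl
  rw [← h3]
  change ρ β⁻¹ (ρ β (w β)) = 0
  change ρ β (w β) = 0 at h2
  rw [h2, map_zero]

theorem sum_smul_fixed {B : Subgroup G} [Fintype B] (u : V) {γ : G} (hγ : γ ∈ B) :
    ρ γ (∑ β : B, ρ (β : G) u) = ∑ β : B, ρ (β : G) u := by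
  rw [map_sum]
  conv_rhs => rw [← Equiv.sum_comp (Equiv.mulLeft (⟨γ, hγ⟩ : B))]
  apply Finset.sum_congr rfl
  intro β _
  rw [← rho_mul]
  rfl

/-- J-invariance upgrades a single weight vector to the whole space. -/
theorem le_kerZ_of_stab {U : Submodule K V} {Z J B : Subgroup G}
    (hUinv : ∀ g ∈ J, ∀ w ∈ U, ρ g w ∈ U)
    (hUmin : ∀ W' ≤ U, (∀ g ∈ J, ∀ w ∈ W', ρ g w ∈ W') → W' = ⊥ ∨ W' = U)
    (hJZ : J ≤ Subgroup.normalizer (Z : Set G))
    (hBJ : B ≤ J) (hJB : J ≤ Subgroup.normalizer (B : Set G)) {μ : G → K} {u : V} (hu : u ∈ U) (hu0 : u ≠ 0)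
    (hμ : ∀ z ∈ Z, ρ z u = μ z • u) (hB : B ≤ stabW Z μ) :
    ∀ h ∈ B, ∀ z ∈ Z, ∀ w ∈ U, ρ (h⁻¹ * z * h) w = ρ z w := by
  let M : Submodule K V :=
    { carrier := {w | w ∈ U ∧ ∀ h ∈ B, ∀ z ∈ Z, ρ (h⁻¹ * z * h) w = ρ z w}
      add_mem' := by
        rintro v w ⟨hv, hv'⟩ ⟨hw, hw'⟩
        exact ⟨U.add_mem hv hw, fun h hh z hz => by rw [map_add, map_add, hv' h hh z hz, hw' h hh z hz]⟩
      zero_mem' := ⟨U.zero_mem, fun h _ z _ => by rw [map_zero, map_zero]⟩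
      smul_mem' := by
        rintro c v ⟨hv, hv'⟩
        exact ⟨U.smul_mem c hv, fun h hh z hz => by rw [map_smul, map_smul, hv' h hh z hz]⟩ }
  have huM : u ∈ M := by
    refine ⟨hu, fun h hh z hz => ?_⟩
    have h1 := hB hh
    rw [hμ _ ((Subgroup.mem_normalizer_iff''.1 h1.1 z).1 hz), h1.2 z hz, hμ z hz]
  have hMJ : ∀ g ∈ J, ∀ w ∈ M, ρ g w ∈ M := by
    rintro g hg w ⟨hw, hw'⟩
    refine ⟨hUinv g hg w hw, fun h hh z hz => ?_⟩
    have h1 : g⁻¹ * h * g ∈ B := (Subgroup.mem_normalizer_iff''.1 (hJB hg) h).1 hh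
    have h2 : g⁻¹ * z * g ∈ Z := (Subgroup.mem_normalizer_iff''.1 (hJZ hg) z).1 hz
    have h3 := hw' _ h1 _ h2
    have h4 : ρ (h⁻¹ * z * h) (ρ g w) = ρ g (ρ ((g⁻¹ * h * g)⁻¹ * (g⁻¹ * z * g) * (g⁻¹ * h * g)) w) := by
      rw [← rho_mul, ← rho_mul]; congr 2; group
    have h5 : ρ z (ρ g w) = ρ g (ρ (g⁻¹ * z * g) w) := by
      rw [← rho_mul, ← rho_mul]; congr 2; group
    rw [h4, h3, h5]
  have hM : M = U := by
    rcases hUmin M (fun w hw => hw.1) hMJ with h | h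
    · exfalso
      rw [h] at huM
      exact hu0 huM
    · exact h
  intro h hh z hz w hw
  rw [← hM] at hw
  exact hw.2 h hh z hz

theorem ward_core [IsAlgClosed K] [FiniteDimensional K V] [Finite G] {p : ℕ} [hp : Fact p.Prime]
    {A Q S : Subgroup G} {a : G}
    (hA : IsElementaryAbelian p A) (hA2 : Nat.card A = p ^ 2) (ha : a ∈ A) (ha1 : a ≠ 1)
    (hAQ : A ≤ Subgroup.normalizer (Q : Set G)) (hSQ : S ≤ Subgroup.normalizer (Q : Set G))
    (hAS : A ≤ Subgroup.normalizer (S : Set G))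
    (hQn : Group.IsNilpotent Q) (hpQ : ¬ p ∣ Nat.card Q) (hpS : ¬ p ∣ Nat.card S) (hQK : (Nat.card Q : K) ≠ 0)
    (hQA : Q ⊓ Subgroup.centralizer (A : Set G) = ⊥) (hSA : S ⊓ Subgroup.centralizer (A : Set G) = ⊥)
    (hSa : ∀ x ∈ S, x * a = a * x) (hQa : ∀ g ∈ Q, g * a = a * g → ∀ x ∈ S, x * g = g * x)
    (hV : ∀ v, (∀ α ∈ A, ρ α v = v) → v = 0)
    (hfix : ∀ b ∈ A, b ≠ 1 → ∀ g ∈ Q, g * b = b * g → ∀ v, ρ b v = v → ρ g v = v) :
    ∀ g ∈ ⁅Q, S⁆, ρ g = 1 := by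
  classical
  by_contra hcon
  push Not at hcon
  have hAab := hA.1
  have hcommA : ∀ x ∈ A, ∀ y ∈ A, x * y = y * x := fun x hx y hy => SigF.elem_comm hA hx hy
  have hAsolv : Group.IsSolvable A := Cop.isSolvable_of_isMulCommutative hAab
  have hcopAQ : (Nat.card A).Coprime (Nat.card Q) := by
    rw [hA2]; exact Nat.Coprime.pow_left _ ((Nat.Prime.coprime_iff_not_dvd hp.out).2 hpQ)
  have hcopAS : (Nat.card A).Coprime (Nat.card S) := by
    rw [hA2]; exact Nat.Coprime.pow_left _ ((Nat.Prime.coprime_iff_not_dvd hp.out).2 hpS)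
  set L := ⁅Q, S⁆ with hL
  have hLQ : L ≤ Q := Subgroup.le_normalizer_iff_commutator_le_left.1 hSQ
  obtain ⟨J, hJ⟩ : ∃ J : Subgroup G, J = Q ⊔ (S ⊔ A) := ⟨_, rfl⟩
  have hQJ : Q ≤ J := hJ ▸ le_sup_left
  have hSJ : S ≤ J := hJ ▸ le_sup_left.trans le_sup_right
  have hAJ : A ≤ J := hJ ▸ le_sup_right.trans le_sup_right
  have hJle : ∀ T : Subgroup G, Q ≤ T → S ≤ T → A ≤ T → J ≤ T := fun T h1 h2 h3 =>
    hJ ▸ sup_le h1 (sup_le h2 h3)
  have hJQ : J ≤ Subgroup.normalizer (Q : Set G) := hJle _ Subgroup.le_normalizer hSQ hAQ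
  have hJL : J ≤ Subgroup.normalizer (L : Set G) :=
    hJle _ (Subgroup.normalizer_commutator_ge_left Q S) (Subgroup.normalizer_commutator_ge_right Q S)
      (H23.le_normalizer_commutator hAQ hAS)
  obtain ⟨W, hW0, hWinv, hWfix⟩ := exists_nofix_norm ρ L (by
    intro h0
    apply hQK
    obtain ⟨m, hm⟩ := Subgroup.card_dvd_of_le hLQ
    rw [hm, Nat.cast_mul, h0, zero_mul]) hcon
  obtain ⟨U, hUW, hU0, hUinv, hUmin⟩ := exists_min_inv ρ J hW0 (fun g hg => hWinv g (hJL hg))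
  obtain ⟨W₀, hW₀U, hW₀, hW₀inv, hW₀min⟩ := exists_min_inv ρ Q hU0 (fun g hg => hUinv g (hQJ hg))
  have hUL : ¬ ∀ g ∈ L, ∀ u ∈ U, ρ g u = u := by
    intro h1
    obtain ⟨u₀, hu₀, hu₀0⟩ := (Submodule.ne_bot_iff _).1 hU0
    exact hu₀0 (hWfix u₀ (hUW hu₀) (fun g hg => h1 g hg u₀ hu₀))
  -- the centre modulo the kernel
  let Z : Subgroup G :=
    { carrier := {g | g ∈ Q ∧ ∀ h ∈ Q, ∀ w ∈ U, ρ g (ρ h w) = ρ h (ρ g w)}
      one_mem' := ⟨Q.one_mem, fun h _ w _ => by rw [map_one]; rfl⟩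
      mul_mem' := by
        rintro a b ⟨ha, ha'⟩ ⟨hb, hb'⟩
        refine ⟨Q.mul_mem ha hb, fun h hh w hw => ?_⟩
        rw [rho_mul, rho_mul, hb' h hh w hw, ha' h hh _ (hUinv b (hQJ hb) w hw)]
      inv_mem' := by
        rintro a ⟨ha, ha'⟩
        refine ⟨Q.inv_mem ha, fun h hh w hw => ?_⟩
        have h1 := ha' h hh (ρ a⁻¹ w) (hUinv _ (hQJ (Q.inv_mem ha)) w hw)
        have h2 : ρ a (ρ a⁻¹ w) = w := by rw [← rho_mul, mul_inv_cancel, map_one]; rfl
        rw [h2] at h1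
        rw [← h1, ← rho_mul, inv_mul_cancel, map_one]; rfl }
  have hZQ : Z ≤ Q := fun g hg => hg.1
  have hZcomm : ∀ z ∈ Z, ∀ h ∈ Q, ∀ w ∈ U, ρ z (ρ h w) = ρ h (ρ z w) := fun z hz => hz.2
  have hZconj : ∀ h ∈ J, ∀ z ∈ Z, h * z * h⁻¹ ∈ Z := by
    rintro h hh z ⟨hz, hz'⟩
    refine ⟨(Subgroup.mem_normalizer_iff.1 (hJQ hh) z).1 hz, fun g hg w hw => ?_⟩
    have h1 := hz' (h⁻¹ * g * h) ((Subgroup.mem_normalizer_iff''.1 (hJQ hh) g).1 hg) (ρ h⁻¹ w)
      (hUinv _ (J.inv_mem hh) w hw)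
    have h2 : ρ (h * z * h⁻¹) (ρ g w) = ρ h (ρ z (ρ (h⁻¹ * g * h) (ρ h⁻¹ w))) := by
      simp only [← rho_mul]; congr 2; group
    have h3 : ρ g (ρ (h * z * h⁻¹) w) = ρ h (ρ (h⁻¹ * g * h) (ρ z (ρ h⁻¹ w))) := by
      simp only [← rho_mul]; congr 2; group
    rw [h2, h3, h1]
  have hnorm : ∀ T : Subgroup G, (∀ h ∈ J, ∀ z ∈ T, h * z * h⁻¹ ∈ T) → J ≤ Subgroup.normalizer (T : Set G) := by
    intro T hT h hh
    rw [Subgroup.mem_normalizer_iff]
    intro z
    refine ⟨fun hz => hT h hh z hz, fun hz => ?_⟩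
    have h1 := hT h⁻¹ (J.inv_mem hh) _ hz
    have h2 : h⁻¹ * (h * z * h⁻¹) * h⁻¹⁻¹ = z := by group
    rwa [h2] at h1
  have hJZ : J ≤ Subgroup.normalizer (Z : Set G) := hnorm Z hZconj
  let Z₀ : Subgroup G :=
    { carrier := {g | g ∈ Z ∧ ∀ w ∈ U, ρ g w = w}
      one_mem' := ⟨Z.one_mem, fun w _ => by rw [map_one]; rfl⟩
      mul_mem' := by
        rintro a b ⟨ha, ha'⟩ ⟨hb, hb'⟩
        refine ⟨Z.mul_mem ha hb, fun w hw => ?_⟩
        rw [rho_mul, hb' w hw, ha' w hw]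
      inv_mem' := by
        rintro a ⟨ha, ha'⟩
        refine ⟨Z.inv_mem ha, fun w hw => ?_⟩
        conv_lhs => rw [← ha' w hw]
        rw [← rho_mul, inv_mul_cancel, map_one]; rfl }
  have hZ₀Z : Z₀ ≤ Z := fun g hg => hg.1
  have hJZ₀ : J ≤ Subgroup.normalizer (Z₀ : Set G) := by
    apply hnorm
    rintro h hh z ⟨hz, hz'⟩
    refine ⟨hZconj h hh z hz, fun w hw => ?_⟩
    rw [rho_mul, rho_mul, hz' _ (hUinv _ (J.inv_mem hh) w hw), ← rho_mul, mul_inv_cancel, map_one]; rfl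
  -- elements acting trivially on Z modulo the kernel
  let KZ : Subgroup G :=
    { carrier := {h | h ∈ J ∧ ∀ z ∈ Z, ∀ w ∈ U, ρ (h⁻¹ * z * h) w = ρ z w}
      one_mem' := ⟨J.one_mem, fun z _ w _ => by simp⟩
      mul_mem' := by
        rintro a b ⟨ha, ha'⟩ ⟨hb, hb'⟩
        refine ⟨J.mul_mem ha hb, fun z hz w hw => ?_⟩
        have h1 : (a * b)⁻¹ * z * (a * b) = b⁻¹ * (a⁻¹ * z * a) * b := by group
        rw [h1, hb' _ ((Subgroup.mem_normalizer_iff''.1 (hJZ ha) z).1 hz) w hw, ha' z hz w hw]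
      inv_mem' := by
        rintro a ⟨ha, ha'⟩
        refine ⟨J.inv_mem ha, fun z hz w hw => ?_⟩
        have h1 := ha' (a * z * a⁻¹) ((Subgroup.mem_normalizer_iff.1 (hJZ ha) z).1 hz) w hw
        have h2 : a⁻¹ * (a * z * a⁻¹) * a = z := by group
        have h3 : a⁻¹⁻¹ * z * a⁻¹ = a * z * a⁻¹ := by group
        rw [h2] at h1
        rw [h3, ← h1] }
  have hQstab : ∀ (μ : G → K) (u : V), u ∈ U → u ≠ 0 → (∀ z ∈ Z, ρ z u = μ z • u) → KZ ≤ stabW Z μ := by
    rintro μ u hu hu0 hμ h ⟨hh, hh'⟩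
    refine ⟨hJZ hh, fun z hz => ?_⟩
    have h1 := hh' z hz u hu
    rw [hμ _ ((Subgroup.mem_normalizer_iff''.1 (hJZ hh) z).1 hz), hμ z hz] at h1
    exact smul_left_injective K hu0 h1
  have hQKZ : Q ≤ KZ := by
    intro g hg
    refine ⟨hQJ hg, fun z hz w hw => ?_⟩
    rw [rho_mul, rho_mul, hZcomm z hz g hg w hw, ← rho_mul, inv_mul_cancel, map_one]; rfl
  have htrans : ∀ B : Subgroup G, B ≤ J → J ≤ Subgroup.normalizer (B : Set G) → ∀ (μ : G → K) (u : V),
      u ∈ U → u ≠ 0 → (∀ z ∈ Z, ρ z u = μ z • u) → B ≤ stabW Z μ → B ≤ KZ := by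
    intro B hBJ hJB μ u hu hu0 hμ hB h hh
    exact ⟨hBJ hh, fun z hz w hw => le_kerZ_of_stab hUinv hUmin hJZ hBJ hJB hu hu0 hμ hB h hh z hz w hw⟩
  obtain ⟨μ₀, hμ₀⟩ : ∃ μ₀ : G → K, ∀ z ∈ Z, ∀ w ∈ W₀, ρ z w = μ₀ z • w := by
    have h1 : ∀ z : G, ∃ c : K, z ∈ Z → ∀ w ∈ W₀, ρ z w = c • w := by
      intro z
      by_cases hz : z ∈ Z
      · obtain ⟨c, hc⟩ := schur_min hW₀ hW₀inv hW₀min (ρ z) (fun w hw => hW₀inv z (hZQ hz) w hw)
          (fun g hg w hw => hZcomm z hz g hg w (hW₀U hw))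
        exact ⟨c, fun _ => hc⟩
      · exact ⟨0, fun h => absurd h hz⟩
    choose μ₀ hμ₀ using h1
    exact ⟨μ₀, fun z hz => hμ₀ z hz⟩
  obtain ⟨u₀, hu₀, hu₀0⟩ := (Submodule.ne_bot_iff _).1 hW₀
  have hu₀μ : ∀ z ∈ Z, ρ z u₀ = μ₀ z • u₀ := fun z hz => hμ₀ z hz u₀ hu₀
  have hwt : ∀ g ∈ J, ∀ (μ : G → K) (u : V), (∀ z ∈ Z, ρ z u = μ z • u) →
      ∀ z ∈ Z, ρ z (ρ g u) = μ (g⁻¹ * z * g) • ρ g u := by
    intro g hg μ u hμ z hz
    have h2 : ρ z (ρ g u) = ρ g (ρ (g⁻¹ * z * g) u) := by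
      rw [← rho_mul, ← rho_mul]; congr 2; group
    rw [h2, hμ _ ((Subgroup.mem_normalizer_iff''.1 (hJZ hg) z).1 hz), map_smul]
  -- weight vectors span
  have hspan : ∀ P : Submodule K V, (∀ (μ : G → K) (u : V), u ∈ U → (∀ z ∈ Z, ρ z u = μ z • u) → u ∈ P) →
      U ≤ P := by
    intro P hP
    obtain ⟨T, hT⟩ : ∃ T : Submodule K V,
      T = Submodule.span K {u : V | u ∈ U ∧ ∃ μ : G → K, ∀ z ∈ Z, ρ z u = μ z • u} := ⟨_, rfl⟩
    have hTU : T ≤ U := by
      rw [hT]; exact Submodule.span_le.2 (fun u hu => hu.1)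
    have hTP : T ≤ P := by
      rw [hT]
      refine Submodule.span_le.2 ?_
      rintro u ⟨hu, μ, hμ⟩
      exact hP μ u hu hμ
    have hTJ : ∀ g ∈ J, ∀ w ∈ T, ρ g w ∈ T := by
      intro g hg
      have h1 : T ≤ T.comap (ρ g) := by
        conv_lhs => rw [hT]
        rw [Submodule.span_le]
        rintro u ⟨hu, μ, hμ⟩
        change ρ g u ∈ T
        rw [hT]
        apply Submodule.subset_span
        exact ⟨hUinv g hg u hu, fun z => μ (g⁻¹ * z * g), hwt g hg μ u hμ⟩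
      exact fun w hw => h1 hw
    rcases hUmin T hTU hTJ with h | h
    · exfalso
      have h1 : u₀ ∈ T := by
        rw [hT]
        exact Submodule.subset_span ⟨hW₀U hu₀, μ₀, hu₀μ⟩
      rw [h] at h1
      exact hu₀0 h1
    · exact h ▸ hTP
  -- regular orbits are impossible
  have hα : ∀ (μ : G → K) (u : V), u ∈ U → u ≠ 0 → (∀ z ∈ Z, ρ z u = μ z • u) →
      ∃ α ∈ A, α ≠ 1 ∧ α ∈ stabW Z μ := by
    intro μ u hu hu0 hμ
    by_contra hno
    push Not at hno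
    have hbot : A ⊓ stabW Z μ = ⊥ := by
      rw [eq_bot_iff]
      rintro α ⟨hα1, hα2⟩
      rw [Subgroup.mem_bot]
      by_contra hne
      exact hno α hα1 hne hα2
    haveI := Fintype.ofFinite A
    have h1 := hV (∑ β : A, ρ (β : G) u) (fun γ hγ => sum_smul_fixed u hγ)
    exact hu0 (orbit_indep (hAJ.trans hJZ) hbot (fun _ => u) (fun β _ => hμ) h1 1 A.one_mem)
  have hzaA : Subgroup.zpowers a ≤ A := (Subgroup.zpowers_le).2 ha
  have hcentn : ∀ (T : Subgroup G) (c : G), (∀ x ∈ T, x * c = c * x) → T ≤ Subgroup.normalizer (Subgroup.zpowers c : Set G) := by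
    intro T c hT x hx
    have h1 : x ∈ Subgroup.centralizer (Subgroup.zpowers c : Set G) := by
      rw [Subgroup.mem_centralizer_iff]
      intro y hy
      obtain ⟨k, rfl⟩ := Subgroup.mem_zpowers_iff.1 hy
      exact ((show Commute x c from hT x hx).zpow_right k).symm.eq
    exact Subgroup.centralizer_le_normalizer _ h1
  have hSeq : ⁅S, A⁆ = S := by
    have h1 := Cop.commutator_sup_centralizer hAS hcopAS (Or.inl hAsolv)
    rwa [hSA, sup_bot_eq] at h1
  have hSKZ : S ≤ KZ := by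
    by_cases haμ : a ∈ stabW Z μ₀
    · have hB : Q ⊔ Subgroup.zpowers a ≤ KZ := by
        apply htrans _ (sup_le hQJ (hzaA.trans hAJ)) _ μ₀ u₀ (hW₀U hu₀) hu₀0 hu₀μ
        · exact sup_le (hQKZ.trans (hQstab μ₀ u₀ (hW₀U hu₀) hu₀0 hu₀μ)) ((Subgroup.zpowers_le).2 haμ)
        · apply hJle
          · exact le_sup_left.trans Subgroup.le_normalizer
          · exact H23.le_normalizer_sup hSQ (hcentn S a hSa)
          · exact H23.le_normalizer_sup hAQ (hcentn A a (fun x hx => hcommA x hx a ha))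
      have haK : Subgroup.zpowers a ≤ KZ := le_sup_right.trans hB
      intro x hx
      refine ⟨hSJ hx, fun z hz w hw => ?_⟩
      obtain ⟨c, ⟨hcZ, hcC⟩, hc⟩ := Cop.fixed_points_quotient (Subgroup.zpowers a) Z
        ((hzaA.trans hAJ).trans hJZ) ((hcopAQ.coprime_dvd_left (Subgroup.card_dvd_of_le hzaA)).coprime_dvd_right
          (Subgroup.card_dvd_of_le hZQ)) (Or.inl inferInstance) Z₀ hZ₀Z ((hZQ.trans hQJ).trans hJZ₀)
        ((hzaA.trans hAJ).trans hJZ₀) z hz (by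
          intro α hα'
          refine ⟨Z.mul_mem (hZconj α (hAJ (hzaA hα')) z hz) (Z.inv_mem hz), fun w hw => ?_⟩
          have h0 := hUinv _ (hQJ (hZQ (Z.inv_mem hz))) w hw
          have h1 := (KZ.inv_mem (haK hα')).2 z hz (ρ z⁻¹ w) h0
          rw [← rho_mul, ← rho_mul, mul_inv_cancel, map_one] at h1
          have h2 : α * z * α⁻¹ * z⁻¹ = α⁻¹⁻¹ * z * α⁻¹ * z⁻¹ := by group
          rw [h2]; exact h1)
      have hca : c * a = a * c := (Subgroup.mem_centralizer_iff.1 hcC a (Subgroup.mem_zpowers a)).symm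
      have hxc := hQa c (hZQ hcZ) hca x hx
      have h1 : ∀ w ∈ U, ρ z w = ρ c w := by
        intro w hw
        have h2 : ρ c w = ρ z (ρ (z⁻¹ * c) w) := by rw [← rho_mul]; congr 2; group
        rw [h2, hc.2 w hw]
      have h2 : ρ (x⁻¹ * z * x) w = ρ x⁻¹ (ρ z (ρ x w)) := by rw [← rho_mul, ← rho_mul, mul_assoc]
      have h3 : ρ x⁻¹ (ρ c (ρ x w)) = ρ c w := by
        rw [← rho_mul, ← rho_mul, mul_assoc, ← hxc, inv_mul_cancel_left]
      rw [h2, h1 _ (hUinv x (hSJ hx) w hw), h3, h1 w hw]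
    · -- elements moving weights inside the orbits of `a`
      let PW : (G → K) → Subgroup G := fun μ =>
        { carrier := {h | h * a = a * h ∧ ∃ α ∈ Subgroup.zpowers a, α * h ∈ stabW Z μ}
          one_mem' := ⟨by rw [one_mul, mul_one], 1, Subgroup.one_mem _, by rw [one_mul]; exact Subgroup.one_mem _⟩
          mul_mem' := by
            rintro h k ⟨h1, α, h2, h3⟩ ⟨k1, β, k2, k3⟩
            refine ⟨by rw [mul_assoc, k1, ← mul_assoc, h1, mul_assoc], α * β, Subgroup.mul_mem _ h2 k2, ?_⟩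
            have h4 : h * β = β * h := by
              obtain ⟨k, rfl⟩ := Subgroup.mem_zpowers_iff.1 k2
              exact ((show Commute h a from h1).zpow_right k).eq
            have h5 : α * β * (h * k) = α * h * (β * k) := by
              rw [mul_assoc, ← mul_assoc β, ← h4]; group
            rw [h5]
            exact Subgroup.mul_mem _ h3 k3
          inv_mem' := by
            rintro h ⟨h1, α, h2, h3⟩
            refine ⟨?_, α⁻¹, Subgroup.inv_mem _ h2, ?_⟩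
            · exact ((show Commute h a from h1).inv_left).eq
            · have h4 : h * α = α * h := by
                obtain ⟨k, rfl⟩ := Subgroup.mem_zpowers_iff.1 h2
                exact ((show Commute h a from h1).zpow_right k).eq
              have h5 : α⁻¹ * h⁻¹ = (α * h)⁻¹ := by rw [← h4]; group
              rw [h5]
              exact Subgroup.inv_mem _ h3 }
      let P : Subgroup G :=
        { carrier := {h | ∀ (μ : G → K) (u : V), u ∈ U → u ≠ 0 → (∀ z ∈ Z, ρ z u = μ z • u) →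
            a ∉ stabW Z μ → h ∈ PW μ}
          one_mem' := fun μ u _ _ _ _ => (PW μ).one_mem
          mul_mem' := fun {h k} hh hk μ u h1 h2 h3 h4 => (PW μ).mul_mem (hh μ u h1 h2 h3 h4) (hk μ u h1 h2 h3 h4)
          inv_mem' := fun {h} hh μ u h1 h2 h3 h4 => (PW μ).inv_mem (hh μ u h1 h2 h3 h4) }
      have hAP : A ≤ P := by
        intro h hh μ u hu hu0 hμ haμ
        obtain ⟨α', hα'A, hα'1, hα's⟩ := hα μ u hu hu0 hμ
        have h1 : α' ∉ Subgroup.zpowers a := by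
          intro h2
          have h3 := elem_mem_zpowers hA ha h2 hα'1
          exact haμ ((Subgroup.zpowers_le).2 hα's h3)
        have h2 : A ≤ PW μ := elem_le_of_mem hA hA2 ha ha1 hα'A h1
          ⟨rfl, a⁻¹, Subgroup.inv_mem _ (Subgroup.mem_zpowers a), by rw [inv_mul_cancel]; exact Subgroup.one_mem _⟩
          ⟨hcommA α' hα'A a ha, 1, Subgroup.one_mem _, by rw [one_mul]; exact hα's⟩
        exact h2 hh
      have hconjP : ∀ x ∈ S, ∀ h ∈ P, x * h * x⁻¹ ∈ P := by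
        intro x hx h hh μ u hu hu0 hμ haμ
        have hxJ := hSJ hx
        have hxi : x⁻¹ ∈ Subgroup.normalizer (Z : Set G) := hJZ (J.inv_mem hxJ)
        have h1 := hwt x⁻¹ (J.inv_mem hxJ) μ u hμ
        have hxa : x⁻¹⁻¹ * a * x⁻¹ = a := by rw [inv_inv, hSa x hx, mul_inv_cancel_right]
        have h2 := hh (fun z => μ (x⁻¹⁻¹ * z * x⁻¹)) (ρ x⁻¹ u) (hUinv _ (J.inv_mem hxJ) u hu) (by
          intro h0
          apply hu0
          have : ρ x (ρ x⁻¹ u) = u := by rw [← rho_mul, mul_inv_cancel, map_one]; rfl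
          rw [← this, h0, map_zero]) h1 (by
          rw [mem_stabW_conj hxi, hxa]; exact haμ)
        obtain ⟨h3, α, h4, h5⟩ := h2
        rw [mem_stabW_conj hxi] at h5
        refine ⟨?_, α, h4, ?_⟩
        · have h6 : Commute x a := hSa x hx
          have h7 : Commute h a := h3
          exact ((h6.mul_left h7).mul_left h6.inv_left).eq
        · have h6 : x * α = α * x := by
            obtain ⟨k, rfl⟩ := Subgroup.mem_zpowers_iff.1 h4
            exact ((show Commute x a from hSa x hx).zpow_right k).eq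
          have h7 : x⁻¹⁻¹ * (α * h) * x⁻¹ = α * (x * h * x⁻¹) := by
            rw [inv_inv, ← mul_assoc, h6]; group
          rwa [h7] at h5
      have hSP : S ≤ P := by
        rw [← hSeq, Subgroup.commutator_le]
        intro x hx α hα'
        rw [commutatorElement_def]
        exact P.mul_mem (hconjP x hx α (hAP hα')) (P.inv_mem (hAP hα'))
      have hSstab : S ≤ stabW Z μ₀ := by
        intro x hx
        obtain ⟨h1, α, h2, h3⟩ := hSP hx μ₀ u₀ (hW₀U hu₀) hu₀0 hu₀μ haμ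
        have hxα : Commute α x := by
          obtain ⟨k, rfl⟩ := Subgroup.mem_zpowers_iff.1 h2
          exact ((show Commute x a from h1).zpow_right k).symm
        have h4 : α ^ orderOf x ∈ stabW Z μ₀ := by
          have h5 := (stabW Z μ₀).pow_mem h3 (orderOf x)
          rwa [hxα.mul_pow, pow_orderOf_eq_one, mul_one] at h5
        have h5 : α = 1 := by
          by_contra hne
          have hαA : α ∈ A := hzaA h2
          have h6 : α ^ orderOf x ≠ 1 := by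
            intro h7
            have h8 := orderOf_dvd_of_pow_eq_one h7
            rw [elem_order hA hαA hne] at h8
            exact hpS (h8.trans (Subgroup.orderOf_dvd_natCard S hx))
          have h7 : a ∈ Subgroup.zpowers (α ^ orderOf x) :=
            elem_mem_zpowers hA ha (Subgroup.pow_mem _ h2 _) h6
          exact haμ ((Subgroup.zpowers_le).2 h4 h7)
        rwa [h5, one_mul] at h3
      have h1 : Q ⊔ S ≤ KZ := by
        apply htrans _ (sup_le hQJ hSJ) _ μ₀ u₀ (hW₀U hu₀) hu₀0 hu₀μ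
        · exact sup_le (hQKZ.trans (hQstab μ₀ u₀ (hW₀U hu₀) hu₀0 hu₀μ)) hSstab
        · exact hJle _ (le_sup_left.trans Subgroup.le_normalizer) (le_sup_right.trans Subgroup.le_normalizer)
            (H23.le_normalizer_sup hAQ hAS)
      exact le_sup_right.trans h1
  obtain ⟨b, hbA, hb1, hbμ⟩ := hα μ₀ u₀ (hW₀U hu₀) hu₀0 hu₀μ
  have hzbA : Subgroup.zpowers b ≤ A := (Subgroup.zpowers_le).2 hbA
  have hbKZ : b ∈ KZ := by
    have h1 : Q ⊔ S ⊔ Subgroup.zpowers b ≤ KZ := by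
      apply htrans _ (sup_le (sup_le hQJ hSJ) (hzbA.trans hAJ)) _ μ₀ u₀ (hW₀U hu₀) hu₀0 hu₀μ
      · exact sup_le (sup_le (hQKZ.trans (hQstab μ₀ u₀ (hW₀U hu₀) hu₀0 hu₀μ))
          (hSKZ.trans (hQstab μ₀ u₀ (hW₀U hu₀) hu₀0 hu₀μ))) ((Subgroup.zpowers_le).2 hbμ)
      · exact hJle _ ((le_sup_left.trans le_sup_left).trans Subgroup.le_normalizer)
          ((le_sup_right.trans le_sup_left).trans Subgroup.le_normalizer)
          (H23.le_normalizer_sup (H23.le_normalizer_sup hAQ hAS) (hcentn A b (fun x hx => hcommA x hx b hbA)))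
    exact h1 ((le_sup_right : Subgroup.zpowers b ≤ _) (Subgroup.mem_zpowers b))
  -- elements outside ⟨b⟩ fix no weight
  have hother : ∀ b' ∈ A, b' ∉ Subgroup.zpowers b → ∀ (μ : G → K) (u : V), u ∈ U → u ≠ 0 →
      (∀ z ∈ Z, ρ z u = μ z • u) → b' ∉ stabW Z μ := by
    intro b' hb'A hb'b μ u hu hu0 hμ hb'μ
    have hKμ := hQstab μ u hu hu0 hμ
    have hAμ : A ≤ stabW Z μ := elem_le_of_mem hA hA2 hbA hb1 hb'A hb'b (hKμ hbKZ) hb'μ
    have hJKZ : J ≤ KZ := htrans J le_rfl Subgroup.le_normalizer μ u hu hu0 hμ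
      (hJle _ (hQKZ.trans hKμ) (hSKZ.trans hKμ) hAμ)
    have hZZ₀ : Z ≤ Z₀ := by
      intro z hz
      obtain ⟨c, ⟨hcZ, hcC⟩, hc⟩ := Cop.fixed_points_quotient A Z
        (hAJ.trans hJZ) (hcopAQ.coprime_dvd_right
          (Subgroup.card_dvd_of_le hZQ)) (Or.inl hAsolv) Z₀ hZ₀Z ((hZQ.trans hQJ).trans hJZ₀)
        (hAJ.trans hJZ₀) z hz (by
          intro α hα'
          refine ⟨Z.mul_mem (hZconj α (hAJ hα') z hz) (Z.inv_mem hz), fun w hw => ?_⟩
          have h0 := hUinv _ (hQJ (hZQ (Z.inv_mem hz))) w hw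
          have h1 := (KZ.inv_mem (hJKZ (hAJ hα'))).2 z hz (ρ z⁻¹ w) h0
          rw [← rho_mul, ← rho_mul, mul_inv_cancel, map_one] at h1
          have h2 : α * z * α⁻¹ * z⁻¹ = α⁻¹⁻¹ * z * α⁻¹ * z⁻¹ := by group
          rw [h2]; exact h1)
      have h1 : c ∈ Q ⊓ Subgroup.centralizer (A : Set G) := ⟨hZQ hcZ, hcC⟩
      rw [hQA, Subgroup.mem_bot] at h1
      rw [h1, mul_one] at hc
      simpa using Z₀.inv_mem hc
    let C : Subgroup G :=
      { carrier := {g | g ∈ Q ∧ ∀ w ∈ U, ρ g w = w}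
        one_mem' := ⟨Q.one_mem, fun w _ => by rw [map_one]; rfl⟩
        mul_mem' := by
          rintro a b ⟨ha, ha'⟩ ⟨hb, hb'⟩
          refine ⟨Q.mul_mem ha hb, fun w hw => ?_⟩
          rw [rho_mul, hb' w hw, ha' w hw]
        inv_mem' := by
          rintro a ⟨ha, ha'⟩
          refine ⟨Q.inv_mem ha, fun w hw => ?_⟩
          conv_lhs => rw [← ha' w hw]
          rw [← rho_mul, inv_mul_cancel, map_one]; rfl }
    have hZC : Z ≤ C := fun z hz => ⟨hZQ hz, (hZZ₀ hz).2⟩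
    have hlN : ∀ i, Q.lowerCentralSeries i ≤ Q := fun i => Q.lowerCentralSeries_antitone (Nat.zero_le i)
    have hstep : ∀ i : ℕ, Q.lowerCentralSeries (i + 1) ≤ C → Q.lowerCentralSeries i ≤ C := by
      intro i hi z hz
      apply hZC
      have hzN := hlN i hz
      refine ⟨hzN, fun h hh w hw => ?_⟩
      have h1 : ⁅z, h⁆ ∈ Q.lowerCentralSeries (i + 1) := Subgroup.commutator_mem_commutator hz hh
      have h2 : z * h * z⁻¹ * h⁻¹ ∈ C := hi h1
      have h3 := h2.2 (ρ (h * z) w) (by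
        rw [rho_mul]; exact hUinv h (hQJ hh) _ (hUinv z (hQJ hzN) w hw))
      rw [← rho_mul, ← rho_mul, ← h3, ← rho_mul]
      congr 2
      group
    obtain ⟨n, hn⟩ := (Subgroup.isNilpotent_iff_lowerCentralSeries Q).1 hQn
    have hall' : ∀ i, Q.lowerCentralSeries (n - i) ≤ C := by
      intro i
      induction i with
      | zero => rw [Nat.sub_zero, hn]; exact bot_le
      | succ i ih =>
        rcases Nat.lt_or_ge i n with hin | hin
        · have h1 : n - i = n - (i + 1) + 1 := by omega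
          rw [h1] at ih
          exact hstep _ ih
        · have h1 : n - (i + 1) = n - i := by omega
          rw [h1]; exact ih
    have hQC : Q ≤ C := by
      have := hall' n
      rwa [Nat.sub_self, Subgroup.lowerCentralSeries_zero] at this
    exact hUL (fun g hg w hw => (hQC (hLQ hg)).2 w hw)
  -- so C_Q(b') acts trivially
  have hfix' : ∀ b' ∈ A, b' ∉ Subgroup.zpowers b → ∀ g ∈ Q, g * b' = b' * g → ∀ u ∈ U, ρ g u = u := by
    intro b' hb'A hb'b g hg hgb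
    have hb'1 : b' ≠ 1 := by
      rintro rfl
      exact hb'b (Subgroup.one_mem _)
    have h1 : U ≤ LinearMap.ker (ρ g - 1) := by
      apply hspan
      intro μ u hu hμ
      rw [LinearMap.mem_ker, LinearMap.sub_apply, Module.End.one_apply]
      by_cases hu0 : u = 0
      · rw [hu0, map_zero, sub_zero]
      have hno := hother b' hb'A hb'b μ u hu hu0 hμ
      have hzb'A : Subgroup.zpowers b' ≤ A := (Subgroup.zpowers_le).2 hb'A
      have hbot : Subgroup.zpowers b' ⊓ stabW Z μ = ⊥ := by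
        rw [eq_bot_iff]
        rintro α ⟨hα1, hα2⟩
        rw [Subgroup.mem_bot]
        by_contra hne
        exact hno ((Subgroup.zpowers_le).2 hα2 (elem_mem_zpowers hA hb'A hα1 hne))
      haveI := Fintype.ofFinite (Subgroup.zpowers b')
      have h2 := sum_smul_fixed (ρ := ρ) (B := Subgroup.zpowers b') u (Subgroup.mem_zpowers b')
      have h3 := hfix b' hb'A hb'1 g hg hgb _ h2
      have h4 : ∑ β : Subgroup.zpowers b', ρ (β : G) (ρ g u - u) = 0 := by
        simp only [map_sub, Finset.sum_sub_distrib]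
        rw [sub_eq_zero, ← h3, map_sum]
        apply Finset.sum_congr rfl
        intro β _
        rw [← rho_mul, ← rho_mul]
        obtain ⟨k, hk⟩ := Subgroup.mem_zpowers_iff.1 β.2
        rw [← hk, ((show Commute g b' from hgb).zpow_right k).eq]
      exact orbit_indep ((hzb'A.trans hAJ).trans hJZ) hbot (fun _ => ρ g u - u) (fun β _ z hz => by
        rw [map_sub, hZcomm z hz g hg u hu, hμ z hz, map_smul, smul_sub]) h4 1 (Subgroup.one_mem _)
    intro u hu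
    have h2 := h1 hu
    rwa [LinearMap.mem_ker, LinearMap.sub_apply, Module.End.one_apply, sub_eq_zero] at h2
  -- hence b acts trivially on Q modulo the kernel
  let Qb : Subgroup G :=
    { carrier := {g | g ∈ Q ∧ ∃ c ∈ Q, c * b = b * c ∧ ∀ u ∈ U, ρ g u = ρ c u}
      one_mem' := ⟨Q.one_mem, 1, Q.one_mem, by rw [one_mul, mul_one], fun u _ => rfl⟩
      mul_mem' := by
        rintro g k ⟨hg, c, hc, hcb, hgc⟩ ⟨hk, d, hd, hdb, hkd⟩
        refine ⟨Q.mul_mem hg hk, c * d, Q.mul_mem hc hd, ?_, fun u hu => ?_⟩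
        · exact ((show Commute c b from hcb).mul_left (show Commute d b from hdb)).eq
        · rw [rho_mul, rho_mul, hkd u hu, hgc _ (hUinv d (hQJ hd) u hu)]
      inv_mem' := by
        rintro g ⟨hg, c, hc, hcb, hgc⟩
        refine ⟨Q.inv_mem hg, c⁻¹, Q.inv_mem hc, ((show Commute c b from hcb).inv_left).eq, fun u hu => ?_⟩
        have h1 := hgc _ (hUinv c⁻¹ (hQJ (Q.inv_mem hc)) u hu)
        have h3 : ρ c (ρ c⁻¹ u) = u := by rw [← rho_mul, mul_inv_cancel, map_one]; rfl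
        have h2 : ρ g⁻¹ (ρ g (ρ c⁻¹ u)) = ρ c⁻¹ u := by rw [← rho_mul, inv_mul_cancel, map_one]; rfl
        rw [← h2, h1, h3] }
  have hQb : Qb = Q := by
    refine SigF.eq_of_fixed_le hA hA2.ge hpQ hAQ (fun g (hg : g ∈ Qb) => hg.1) ?_
    rintro α hαA hα1 g ⟨hg, hg'⟩
    have hgα : g * α = α * g := (Subgroup.mem_centralizer_iff.1 hg' α rfl).symm
    by_cases hαb : α ∈ Subgroup.zpowers b
    · refine ⟨hg, g, hg, ?_, fun u _ => rfl⟩
      obtain ⟨k, hk⟩ := Subgroup.mem_zpowers_iff.1 (elem_mem_zpowers hA hbA hαb hα1)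
      rw [← hk]
      exact ((show Commute g α from hgα).zpow_right k).eq
    · refine ⟨hg, 1, Q.one_mem, by rw [one_mul, mul_one], fun u hu => ?_⟩
      rw [hfix' α hαA hαb g hg hgα u hu, map_one]; rfl
  -- the kernel of the action on Q modulo the kernel
  let KQ : Subgroup G :=
    { carrier := {h | h ∈ J ∧ ∀ g ∈ Q, ∀ w ∈ U, ρ (h⁻¹ * g * h) w = ρ g w}
      one_mem' := ⟨J.one_mem, fun z _ w _ => by simp⟩
      mul_mem' := by
        rintro a b ⟨ha, ha'⟩ ⟨hb, hb'⟩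
        refine ⟨J.mul_mem ha hb, fun z hz w hw => ?_⟩
        have h1 : (a * b)⁻¹ * z * (a * b) = b⁻¹ * (a⁻¹ * z * a) * b := by group
        rw [h1, hb' _ ((Subgroup.mem_normalizer_iff''.1 (hJQ ha) z).1 hz) w hw, ha' z hz w hw]
      inv_mem' := by
        rintro a ⟨ha, ha'⟩
        refine ⟨J.inv_mem ha, fun z hz w hw => ?_⟩
        have h1 := ha' (a * z * a⁻¹) ((Subgroup.mem_normalizer_iff.1 (hJQ ha) z).1 hz) w hw
        have h2 : a⁻¹ * (a * z * a⁻¹) * a = z := by group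
        have h3 : a⁻¹⁻¹ * z * a⁻¹ = a * z * a⁻¹ := by group
        rw [h2] at h1
        rw [h3, ← h1] }
  have hKQconj : ∀ j ∈ J, ∀ h ∈ KQ, j * h * j⁻¹ ∈ KQ := by
    rintro j hj h ⟨hh, hh'⟩
    refine ⟨J.mul_mem (J.mul_mem hj hh) (J.inv_mem hj), fun g hg w hw => ?_⟩
    have h1 := hh' (j⁻¹ * g * j) ((Subgroup.mem_normalizer_iff''.1 (hJQ hj) g).1 hg) (ρ j⁻¹ w)
      (hUinv _ (J.inv_mem hj) w hw)
    have h2 : ρ ((j * h * j⁻¹)⁻¹ * g * (j * h * j⁻¹)) w = ρ j (ρ (h⁻¹ * (j⁻¹ * g * j) * h) (ρ j⁻¹ w)) := by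
      rw [← rho_mul, ← rho_mul]; congr 2; group
    have h3 : ρ j (ρ (j⁻¹ * g * j) (ρ j⁻¹ w)) = ρ g w := by
      rw [← rho_mul, ← rho_mul]; congr 2; group
    rw [h2, h1, h3]
  have hbKQ : b ∈ KQ := by
    refine ⟨hAJ hbA, fun g hg w hw => ?_⟩
    rw [← hQb] at hg
    obtain ⟨hg, c, hc, hcb, hgc⟩ := hg
    have h2 : ρ (b⁻¹ * g * b) w = ρ b⁻¹ (ρ g (ρ b w)) := by rw [← rho_mul, ← rho_mul, mul_assoc]
    have h3 : ρ b⁻¹ (ρ c (ρ b w)) = ρ c w := by
      rw [← rho_mul, ← rho_mul, mul_assoc, hcb, inv_mul_cancel_left]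
    rw [h2, hgc _ (hUinv b (hAJ hbA) w hw), h3, hgc w hw]
  have hSKQ : S ≤ KQ := by
    by_cases hba : b ∈ Subgroup.zpowers a
    · have hab : a ∈ Subgroup.zpowers b := elem_mem_zpowers hA ha hba hb1
      intro x hx
      refine ⟨hSJ hx, fun g hg w hw => ?_⟩
      rw [← hQb] at hg
      obtain ⟨hg, c, hc, hcb, hgc⟩ := hg
      have hca : c * a = a * c := by
        obtain ⟨k, hk⟩ := Subgroup.mem_zpowers_iff.1 hab
        rw [← hk]
        exact ((show Commute c b from hcb).zpow_right k).eq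
      have hxc := hQa c hc hca x hx
      have h2 : ρ (x⁻¹ * g * x) w = ρ x⁻¹ (ρ g (ρ x w)) := by rw [← rho_mul, ← rho_mul, mul_assoc]
      have h3 : ρ x⁻¹ (ρ c (ρ x w)) = ρ c w := by
        rw [← rho_mul, ← rho_mul, mul_assoc, ← hxc, inv_mul_cancel_left]
      rw [h2, hgc _ (hUinv x (hSJ hx) w hw), h3, hgc w hw]
    · have h1 : S ⊓ Subgroup.centralizer (Subgroup.zpowers b : Set G) = ⊥ := by
        rw [eq_bot_iff, ← hSA]
        rintro x ⟨hx, hx'⟩
        refine ⟨hx, ?_⟩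
        have hA' : A ≤ Subgroup.centralizer {x} := elem_le_of_mem hA hA2 ha ha1 hbA hba
          (Subgroup.mem_centralizer_iff.2 (fun y hy => by rw [Set.mem_singleton_iff.1 hy]; exact hSa x hx))
          (Subgroup.mem_centralizer_iff.2 (fun y hy => by
            rw [Set.mem_singleton_iff.1 hy]
            exact (Subgroup.mem_centralizer_iff.1 hx' b (Subgroup.mem_zpowers b)).symm))
        refine Subgroup.mem_centralizer_iff.2 (fun y hy => ?_)
        exact (Subgroup.mem_centralizer_iff.1 (hA' hy) x rfl).symm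
      have h2 := Cop.commutator_sup_centralizer (hzbA.trans hAS)
        (hcopAS.coprime_dvd_left (Subgroup.card_dvd_of_le hzbA)) (Or.inl inferInstance)
      rw [h1, sup_bot_eq] at h2
      rw [← h2, Subgroup.commutator_le]
      intro x hx β hβ
      have hβK : β ∈ KQ := ((Subgroup.zpowers_le).2 hbKQ) hβ
      rw [commutatorElement_def]
      exact KQ.mul_mem (hKQconj x (hSJ hx) β hβK) (KQ.inv_mem hβK)
  apply hUL
  let FU : Subgroup G :=
    { carrier := {g | g ∈ J ∧ ∀ w ∈ U, ρ g w = w}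
      one_mem' := ⟨J.one_mem, fun w _ => by rw [map_one]; rfl⟩
      mul_mem' := by
        rintro a b ⟨ha, ha'⟩ ⟨hb, hb'⟩
        refine ⟨J.mul_mem ha hb, fun w hw => ?_⟩
        rw [rho_mul, hb' w hw, ha' w hw]
      inv_mem' := by
        rintro a ⟨ha, ha'⟩
        refine ⟨J.inv_mem ha, fun w hw => ?_⟩
        conv_lhs => rw [← ha' w hw]
        rw [← rho_mul, inv_mul_cancel, map_one]; rfl }
  have hLFU : L ≤ FU := by
    rw [hL, Subgroup.commutator_le]
    intro g hg x hx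
    refine ⟨J.mul_mem (J.mul_mem (J.mul_mem (hQJ hg) (hSJ hx)) (J.inv_mem (hQJ hg))) (J.inv_mem (hSJ hx)),
      fun w hw => ?_⟩
    have h1 := (KQ.inv_mem (hSKQ hx)).2 g⁻¹ (Q.inv_mem hg) w hw
    have h2 : ρ ⁅g, x⁆ w = ρ g (ρ (x⁻¹⁻¹ * g⁻¹ * x⁻¹) w) := by
      rw [← rho_mul, commutatorElement_def]; congr 2; group
    rw [h2, h1, ← rho_mul, mul_inv_cancel, map_one]; rfl
  exact fun g hg w hw => (hLFU hg).2 w hw

end Cfsg.Agent.HH
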