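import Mathlib
import Cfsg.Agent.HH.WardCore
import Cfsg.Agent.HH.GroupC
import Cfsg.Agent.HH.EMod
import Cfsg.Agent.Frob.Aut
import Cfsg.Agent.Fus.Alperin
import Cfsg.Agent.S0132
import Cfsg.Agent.Solv.MinNormal

set_option autoImplicit false

/-!
Ward's theorem, the global part.
-/

namespace Cfsg.Agent.HH

open Subgroup Module
open scoped BigOperators commutatorElement TensorProduct

universe u v w

theorem nilpotent_of_commuting {T : Type u} [Group T] [Finite T] (k : ℕ)
    (hK : Group.IsNilpotent ((⊤ : Subgroup T).lowerCentralSeries k))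
    (h : ∀ (s : ℕ) [Fact s.Prime], ∃ S : Sylow s T, ∀ (q : ℕ) [Fact q.Prime], q ≠ s →
      ∀ g ∈ (⊤ : Subgroup T).lowerCentralSeries k, (∃ n, g ^ q ^ n = 1) →
        ∀ x ∈ (S : Subgroup T), x * g = g * x) :
    Group.IsNilpotent T := by
  classical
  obtain ⟨N, hN⟩ : ∃ N, N = (⊤ : Subgroup T).lowerCentralSeries k := ⟨_, rfl⟩
  rw [← hN] at hK
  have hNn : N.Normal := by rw [hN]; infer_instance
  have key := (Group.isNilpotent_of_finite_tfae (G := T)).out 0 3
  rw [key]; clear key
  intro s hs P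
  obtain ⟨S, hS⟩ := h s
  suffices hSn : (S : Subgroup T).Normal by
    have := Sylow.unique_of_normal S hSn
    have : P = S := Subsingleton.elim _ _
    rw [this]; exact hSn
  have hNS : N ≤ normalizer ((S : Subgroup T) : Set T) := by
    have h1 : (normalizer ((S : Subgroup T) : Set T)).subgroupOf N = ⊤ := by
      apply Frob.eq_top_of_sylow_le
      intro q hq
      obtain ⟨R⟩ : Nonempty (Sylow q N) := inferInstance
      refine ⟨R, ?_⟩
      by_cases hqs : q = s
      · subst hqs
        have h2 : ((R : Subgroup N).map N.subtype).Normal := by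
          haveI : (R : Subgroup N).Normal := inferInstance
          haveI : (R : Subgroup N).Characteristic := Sylow.characteristic_of_normal R inferInstance
          infer_instance
        have h3 : (R : Subgroup N).map N.subtype ≤ S := Fus.normal_le_sylow h2 (R.isPGroup'.map _) S
        intro x hx
        exact Subgroup.le_normalizer (h3 ⟨x, hx, rfl⟩)
      · intro x hx
        refine Subgroup.centralizer_le_normalizer _ (mem_centralizer_iff.2 ?_)
        intro y hy
        obtain ⟨n, hn⟩ := R.isPGroup' ⟨x, hx⟩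
        have hx' : (x : T) ∈ (⊤ : Subgroup T).lowerCentralSeries k := by rw [← hN]; exact x.2
        refine hS q hqs x hx' ⟨n, ?_⟩ y hy
        have := congrArg (fun z : (R : Subgroup N) => ((z : N) : T)) hn
        simpa using this
    intro x hx
    have h2 : (⟨x, hx⟩ : N) ∈ (normalizer ((S : Subgroup T) : Set T)).subgroupOf N := by rw [h1]; trivial
    exact h2
  have hnil : Group.IsNilpotent (T ⧸ N) := by
    rw [Subgroup.nilpotent_iff_lowerCentralSeries]
    refine ⟨k, ?_⟩
    have h1 := map_lowerCentralSeries (⊤ : Subgroup T) (QuotientGroup.mk' N) k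
    rw [← hN, QuotientGroup.map_mk'_self, ← MonoidHom.range_eq_map, QuotientGroup.range_mk'] at h1
    exact h1.symm
  have hMn : ((S : Subgroup T) ⊔ N).Normal := by
    have h1 : (((S.mapSurjective (QuotientGroup.mk'_surjective N) : Sylow s (T ⧸ N)) : Subgroup (T ⧸ N))).Normal :=
      inferInstance
    have h2 := h1.comap (QuotientGroup.mk' N)
    rwa [Sylow.coe_mapSurjective, Subgroup.comap_map_eq, QuotientGroup.ker_mk'] at h2
  have h1 : normalizer ((S : Subgroup T) : Set T) ⊔ ((S : Subgroup T) ⊔ N) = ⊤ :=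
    Sylow.normalizer_sup_eq_top' S (N := (S : Subgroup T) ⊔ N) le_sup_left
  rw [sup_eq_left.2 (sup_le Subgroup.le_normalizer hNS)] at h1
  exact normalizer_eq_top_iff.1 h1

/-- The hypotheses of Ward's theorem, inside a group. -/
structure WardHyp (p : ℕ) {X : Type u} [Group X] (G A : Subgroup X) : Prop where
  normal : G.Normal
  solv : Group.IsSolvable G
  ea : IsElementaryAbelian p A
  card : Nat.card A = p ^ 2
  fix : G ⊓ centralizer (A : Set X) = ⊥

namespace WardHyp

variable {p : ℕ} [hp : Fact p.Prime] {X : Type u} [Group X] [Finite X] {G A : Subgroup X}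

omit hp [Finite X] in
theorem le_norm (h : WardHyp p G A) (B : Subgroup X) : B ≤ normalizer (G : Set X) := by
  haveI := h.normal
  rw [normalizer_eq_top]; exact le_top

theorem not_dvd (h : WardHyp p G A) : ¬ p ∣ Nat.card G := by
  haveI := h.normal
  have hAG : A ≤ normalizer (G : Set X) := h.le_norm A
  let f : A →* MulAut G := (G.normalizerMonoidHom).comp (Subgroup.inclusion hAG)
  letI : MulAction A G := MulAction.compHom G f
  have hsm : ∀ (a : A) (g : G), ((a • g : G) : X) = a * g * (a : X)⁻¹ := fun a g => rfl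
  have h1 := (SigF.isPGroup_of_elem h.ea).card_modEq_card_fixedPoints G
  have h2 : Nat.card (MulAction.fixedPoints A G) = 1 := by
    rw [Nat.card_eq_one_iff_unique]
    refine ⟨⟨?_⟩, ⟨⟨1, fun a => ?_⟩⟩⟩
    · have key : ∀ g : MulAction.fixedPoints A G, ((g : G) : X) = 1 := by
        rintro ⟨g, hg⟩
        have h3 : (g : X) ∈ G ⊓ centralizer (A : Set X) := by
          refine ⟨g.2, mem_centralizer_iff.2 ?_⟩
          intro a ha
          have h4 := congrArg Subtype.val (hg ⟨a, ha⟩)
          rw [hsm] at h4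
          change a * (g : X) * a⁻¹ = g at h4
          rw [mul_inv_eq_iff_eq_mul] at h4
          exact h4
        rw [h.fix, mem_bot] at h3
        exact h3
      intro x y
      apply Subtype.ext
      apply Subtype.ext
      rw [key x, key y]
    · apply Subtype.ext
      rw [hsm]; simp
  rw [h2] at h1
  intro hd
  have h3 := (Nat.modEq_zero_iff_dvd.2 hd).symm.trans h1
  have h4 : p ∣ 1 := (Nat.modEq_zero_iff_dvd).1 h3.symm
  exact hp.out.one_lt.ne' (Nat.dvd_one.1 h4)

theorem cop (h : WardHyp p G A) : (Nat.card A).Coprime (Nat.card G) := by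
  rw [h.card]; exact Nat.Coprime.pow_left _ ((Nat.Prime.coprime_iff_not_dvd hp.out).2 h.not_dvd)

omit [Finite X] in
theorem exists_other [Finite X] (h : WardHyp p G A) {a : X} (ha : a ∈ A) (ha1 : a ≠ 1) :
    ∃ c ∈ A, c ∉ zpowers a := by
  by_contra hcon
  push Not at hcon
  have h1 : Nat.card A ≤ Nat.card (zpowers a) := Subgroup.card_le_of_le hcon
  rw [h.card, Nat.card_zpowers, elem_order h.ea ha ha1] at h1
  have := hp.out.one_lt
  nlinarith

theorem nilp (h : WardHyp p G A) {a : X} (ha : a ∈ A) (ha1 : a ≠ 1) :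
    Group.IsNilpotent (G ⊓ centralizer {a} : Subgroup X) := by
  haveI := h.normal
  obtain ⟨c, hc, hca⟩ := h.exists_other ha ha1
  obtain ⟨C, hC⟩ : ∃ C : Subgroup X, C = G ⊓ centralizer {a} := ⟨_, rfl⟩
  rw [← hC]
  have hcomm : ∀ x ∈ A, ∀ y ∈ A, x * y = y * x := fun x hx y hy => SigF.elem_comm h.ea hx hy
  have hcC : c ∈ normalizer (C : Set X) := by
    have key : ∀ d ∈ A, ∀ g ∈ C, d * g * d⁻¹ ∈ C := by
      intro d hd g hg
      rw [hC] at hg ⊢
      obtain ⟨hg, hg'⟩ := hg
      refine ⟨h.normal.conj_mem g hg d, mem_centralizer_iff.2 ?_⟩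
      intro y hy
      rw [Set.mem_singleton_iff.1 hy]
      have h1 : Commute a d := hcomm a ha d hd
      have h2 : Commute a g := mem_centralizer_iff.1 hg' a rfl
      exact ((h1.mul_right h2).mul_right h1.inv_right).eq
    rw [mem_normalizer_iff]
    intro g
    refine ⟨fun hg => key c hc g hg, fun hg => ?_⟩
    have h1 := key c⁻¹ (A.inv_mem hc) _ hg
    have h2 : c⁻¹ * (c * g * c⁻¹) * c⁻¹⁻¹ = g := by group
    rwa [h2] at h1
  have hsolv : Group.IsSolvable C := Cop.isSolvable_of_le (by rw [hC]; exact inf_le_left) h.solv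
  refine Frob.isNilpotent_of_isSolvable_of_fpf_aut hp.out (Nat.card C) C rfl hsolv
    (C.normalizerMonoidHom ⟨c, hcC⟩) ?_ ?_
  · intro g
    rw [← map_pow]
    have : (⟨c, hcC⟩ : normalizer (C : Set X)) ^ p = 1 := Subtype.ext (h.ea.2 c hc)
    rw [this, map_one]; rfl
  · intro g hg
    have h1 : c * (g : X) * c⁻¹ = g := congrArg Subtype.val hg
    rw [mul_inv_eq_iff_eq_mul] at h1
    have hgC : (g : X) ∈ G ⊓ centralizer {a} := hC ▸ g.2
    have h2 : (g : X) ∈ G ⊓ centralizer (A : Set X) := by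
      refine ⟨hgC.1, ?_⟩
      have hA' : A ≤ centralizer {(g : X)} := elem_le_of_mem h.ea h.card ha ha1 hc hca
        (mem_centralizer_iff.2 (fun y hy => by
          rw [Set.mem_singleton_iff.1 hy]; exact (mem_centralizer_iff.1 hgC.2 a rfl).symm))
        (mem_centralizer_iff.2 (fun y hy => by
          rw [Set.mem_singleton_iff.1 hy]; exact h1.symm))
      refine mem_centralizer_iff.2 (fun y hy => ?_)
      exact (mem_centralizer_iff.1 (hA' hy) g rfl).symm
    rw [h.fix, mem_bot] at h2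
    exact Subtype.ext h2

theorem lift (h : WardHyp p G A) (N : Subgroup X) [N.Normal] (hNG : N ≤ G) {B : Subgroup X} (hBA : B ≤ A)
    {g : X} (hg : g ∈ G) (hgB : ∀ b ∈ B, b * g * b⁻¹ * g⁻¹ ∈ N) :
    ∃ c ∈ G ⊓ centralizer (B : Set X), QuotientGroup.mk' N c = QuotientGroup.mk' N g := by
  haveI := h.normal
  have hnorm : ∀ T : Subgroup X, T ≤ normalizer (N : Set X) := by
    intro T; rw [normalizer_eq_top]; exact le_top
  have hBs : Group.IsSolvable B :=
    Cop.isSolvable_of_le hBA (Cop.isSolvable_of_isMulCommutative h.ea.1)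
  obtain ⟨c, hc, hc'⟩ := Cop.fixed_points_quotient B G (h.le_norm B)
    (h.cop.coprime_dvd_left (Subgroup.card_dvd_of_le hBA)) (Or.inl hBs) N hNG (hnorm _) (hnorm _) g hg hgB
  refine ⟨c, hc, ?_⟩
  rw [eq_comm, QuotientGroup.mk'_apply, QuotientGroup.mk'_apply, QuotientGroup.eq]
  exact hc'

theorem card_map (h : WardHyp p G A) (N : Subgroup X) [N.Normal] (hNG : N ≤ G) :
    ∀ x ∈ A, QuotientGroup.mk' N x = 1 → x = 1 := by
  intro x hx h1
  rw [QuotientGroup.mk'_apply, QuotientGroup.eq_one_iff] at h1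
  exact Cop.eq_one_of_mem_of_mem h.cop hx (hNG h1)

theorem quot (h : WardHyp p G A) (N : Subgroup X) [N.Normal] (hNG : N ≤ G) :
    WardHyp p (G.map (QuotientGroup.mk' N)) (A.map (QuotientGroup.mk' N)) where
  normal := h.normal.map _ (QuotientGroup.mk'_surjective N)
  solv := by
    haveI := h.solv
    exact Group.isSolvable_of_surjective (f := (QuotientGroup.mk' N).subgroupMap G)
      ((QuotientGroup.mk' N).subgroupMap_surjective G)
  ea := by
    refine ⟨⟨⟨?_⟩⟩, ?_⟩
    · rintro ⟨_, x, hx, rfl⟩ ⟨_, y, hy, rfl⟩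
      apply Subtype.ext
      change QuotientGroup.mk' N x * QuotientGroup.mk' N y = QuotientGroup.mk' N y * QuotientGroup.mk' N x
      rw [← map_mul, ← map_mul, SigF.elem_comm h.ea hx hy]
    · rintro _ ⟨x, hx, rfl⟩
      rw [← map_pow, h.ea.2 x hx, map_one]
  card := by
    rw [← h.card]
    symm
    refine Nat.card_congr (Equiv.ofBijective ((QuotientGroup.mk' N).subgroupMap A) ⟨?_, (QuotientGroup.mk' N).subgroupMap_surjective A⟩)
    rw [injective_iff_map_eq_one]
    intro x hx
    exact Subtype.ext (h.card_map N hNG x x.2 (congrArg Subtype.val hx))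
  fix := by
    rw [eq_bot_iff]
    rintro _ ⟨⟨g, hg, rfl⟩, hg'⟩
    obtain ⟨c, hc, hc'⟩ := h.lift N hNG le_rfl hg (by
      intro b hb
      have h1 := mem_centralizer_iff.1 hg' (QuotientGroup.mk' N b) ⟨b, hb, rfl⟩
      rw [← QuotientGroup.eq_one_iff, ← QuotientGroup.mk'_apply, map_mul, map_mul, map_mul, map_inv, map_inv, h1]
      group)
    rw [h.fix, mem_bot] at hc
    rw [mem_bot, ← hc', hc, map_one]

end WardHyp

theorem bc_avg {F : Type w} [Field F] {H : Type u} [Group H] {W : Type v} [AddCommGroup W] [Module F W]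
    (ρ : Representation F H W) (B : Subgroup H) [Fintype B] (T : Module.End F W)
    (hT : T * ∑ β : B, ρ (β : H) = ∑ β : B, ρ (β : H)) (hB : (Nat.card B : AlgebraicClosure F) ≠ 0)
    {v : AlgebraicClosure F ⊗[F] W} (hv : ∀ β ∈ B, bc F ρ β v = v) :
    Module.End.baseChangeHom F (AlgebraicClosure F) W T v = v := by
  have h3 : ∀ β : B, (Module.End.baseChangeHom F (AlgebraicClosure F) W (ρ (β : H))) v = v := fun β => hv β β.2
  have h1 := congrArg (fun S => Module.End.baseChangeHom F (AlgebraicClosure F) W S v) hT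
  simp only [map_mul, map_sum, Module.End.mul_apply, LinearMap.sum_apply, h3, Finset.sum_const,
    Finset.card_univ, ← Nat.card_eq_fintype_card] at h1
  rw [← Nat.cast_smul_eq_nsmul (AlgebraicClosure F), map_smul] at h1
  exact smul_right_injective _ hB h1

section Main

variable {p : ℕ} [hp : Fact p.Prime] {X : Type u} [Group X] [Finite X] {G A : Subgroup X}

theorem ward_fix (h : WardHyp p G A) {N : Subgroup X} [hNn : N.Normal] (hNG : N ≤ G)
    {V : Subgroup X} (hVG : V ≤ G) {r : ℕ} [hr : Fact r.Prime] (hpr : r ≠ p) {A' : Type u} [AddCommGroup A']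
    [Module (ZMod r) A'] (e : V → A') (he1 : e 1 = 0) (hes : Function.Surjective e)
    (ρ : Representation (ZMod r) (X ⧸ N) A')
    (hρ : ∀ (x : X) (v : V), ρ (QuotientGroup.mk' N x) (e v) = e v ↔ x * v = v * x) :
    ∀ v, (∀ α ∈ A.map (QuotientGroup.mk' N), bc (ZMod r) ρ α v = v) → v = 0 := by
  classical
  have hq := h.quot N hNG
  intro v hv
  haveI := Fintype.ofFinite (A.map (QuotientGroup.mk' N))
  have h3 : ∑ β : A.map (QuotientGroup.mk' N), ρ (β : X ⧸ N) = 0 := by
    apply LinearMap.ext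
    intro w
    rw [LinearMap.sum_apply, LinearMap.zero_apply]
    obtain ⟨v', hv'⟩ := hes (∑ β : A.map (QuotientGroup.mk' N), ρ (β : X ⧸ N) w)
    have h4 : (v' : X) ∈ G ⊓ centralizer (A : Set X) := by
      refine ⟨hVG v'.2, mem_centralizer_iff.2 ?_⟩
      intro α hα
      rw [← hρ, hv']
      exact sum_smul_fixed w (Subgroup.mem_map_of_mem _ hα)
    rw [h.fix, Subgroup.mem_bot] at h4
    have h5 : v' = 1 := Subtype.ext h4
    rw [← hv', h5]
    exact he1
  have h4 := bc_avg ρ (A.map (QuotientGroup.mk' N)) 0 (by rw [h3, mul_zero]) (by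
    rw [hq.card, Nat.cast_pow]; exact pow_ne_zero _ (cast_ne_zero_bc hp.out hpr)) hv
  rw [map_zero, LinearMap.zero_apply] at h4
  exact h4.symm

theorem ward_fix' (h : WardHyp p G A) {N : Subgroup X} [hNn : N.Normal] (hNG : N ≤ G)
    {V : Subgroup X} (hVG : V ≤ G) {r : ℕ} [hr : Fact r.Prime] (hpr : r ≠ p) (hVr : ∀ v ∈ V, v ^ r = 1)
    {A' : Type u} [AddCommGroup A']
    [Module (ZMod r) A'] (e : V → A') (hes : Function.Surjective e)
    (ρ : Representation (ZMod r) (X ⧸ N) A')
    (hρ : ∀ (x : X) (v : V), ρ (QuotientGroup.mk' N x) (e v) = e v ↔ x * v = v * x)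
    {b g : X ⧸ N} (hb : b ∈ A.map (QuotientGroup.mk' N)) (hb1 : b ≠ 1) (hg : g ∈ G.map (QuotientGroup.mk' N))
    (hgr : (orderOf g).Coprime r) (hgb : g * b = b * g)
    (v : AlgebraicClosure (ZMod r) ⊗[ZMod r] A') (hv : bc (ZMod r) ρ b v = v) : bc (ZMod r) ρ g v = v := by
  classical
  have hq := h.quot N hNG
  have hb' := hb
  obtain ⟨b, hbA, rfl⟩ := hb
  obtain ⟨x, hxG, rfl⟩ := hg
  have hb1' : b ≠ 1 := by rintro rfl; exact hb1 (map_one _)
  have hzbA : zpowers b ≤ A := (zpowers_le).2 hbA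
  obtain ⟨c, ⟨hcG, hcb⟩, hcx⟩ := h.lift N hNG hzbA hxG (by
    intro β hβ
    obtain ⟨k, rfl⟩ := mem_zpowers_iff.1 hβ
    have h1 : Commute (QuotientGroup.mk' N x) (QuotientGroup.mk' N b) := hgb
    have h2 := (h1.zpow_right k).symm
    have h3 : QuotientGroup.mk' N (b ^ k) * QuotientGroup.mk' N x = QuotientGroup.mk' N x * QuotientGroup.mk' N (b ^ k) := by
      rw [map_zpow]; exact h2.eq
    rw [← QuotientGroup.eq_one_iff, ← QuotientGroup.mk'_apply, map_mul, map_mul, map_mul, map_inv, map_inv, h3]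
    group)
  -- make c an r'-element
  obtain ⟨m, hm1, hm2⟩ : ∃ m, QuotientGroup.mk' N (c ^ m) = QuotientGroup.mk' N x ∧ (orderOf (c ^ m)).Coprime r := by
    obtain ⟨e, m', hm', hem⟩ := Nat.exists_eq_pow_mul_and_not_dvd (orderOf_pos c).ne' r hr.out.ne_one
    have hcop : (r ^ e).Coprime (orderOf (QuotientGroup.mk' N x)) := (hgr.pow_right e).symm
    obtain ⟨m, hm1, hm2⟩ := Nat.chineseRemainder hcop 0 1
    refine ⟨m, ?_, ?_⟩
    · rw [map_pow, hcx]
      conv_rhs => rw [← pow_one (QuotientGroup.mk' N x)]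
      exact pow_eq_pow_iff_modEq.2 hm2
    · obtain ⟨t, ht⟩ := (Nat.modEq_zero_iff_dvd).1 hm1
      have h1 : (c ^ m) ^ m' = 1 := by
        rw [← pow_mul, ht, mul_right_comm, ← hem, pow_mul, pow_orderOf_eq_one, one_pow]
      exact Nat.Coprime.coprime_dvd_left (orderOf_dvd_of_pow_eq_one h1)
        ((Nat.Prime.coprime_iff_not_dvd hr.out).2 hm').symm
  haveI := Fintype.ofFinite (zpowers (QuotientGroup.mk' N b))
  have h4 := bc_avg ρ (zpowers (QuotientGroup.mk' N b)) (ρ (QuotientGroup.mk' N x)) (by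
    apply LinearMap.ext
    intro w
    rw [Module.End.mul_apply, LinearMap.sum_apply]
    obtain ⟨v', hv'⟩ := hes (∑ β : zpowers (QuotientGroup.mk' N b), ρ (β : X ⧸ N) w)
    have h5 : b * v' = v' * b := by
      rw [← hρ, hv']
      exact sum_smul_fixed w (mem_zpowers _)
    rw [← hv', ← hm1, hρ]
    -- both in C_G(b), nilpotent
    haveI := h.nilp hbA hb1'
    have hv'C : (v' : X) ∈ G ⊓ centralizer {b} := ⟨hVG v'.2, mem_centralizer_iff.2 (fun y hy => by
      rw [Set.mem_singleton_iff.1 hy]; exact h5)⟩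
    have hcC : c ^ m ∈ G ⊓ centralizer {b} := ⟨G.pow_mem hcG m, mem_centralizer_iff.2 (fun y hy => by
      rw [Set.mem_singleton_iff.1 hy]
      have h6 : Commute b c := mem_centralizer_iff.1 hcb b (mem_zpowers b)
      exact (h6.pow_right m).eq)⟩
    have h3 := S0132.commute_of_coprime (x := (⟨c ^ m, hcC⟩ : (G ⊓ centralizer {b} : Subgroup X)))
      (y := ⟨v', hv'C⟩) (by
      rw [Subgroup.orderOf_mk, Subgroup.orderOf_mk]
      exact Nat.Coprime.coprime_dvd_right (orderOf_dvd_of_pow_eq_one (hVr v' v'.2)) hm2)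
    exact congrArg Subtype.val h3.eq) (by
      rw [Nat.card_zpowers, elem_order hq.ea hb' hb1]
      exact cast_ne_zero_bc hp.out hpr) (v := v) (by
      intro β hβ
      obtain ⟨k, hk⟩ := (Submonoid.mem_powers_iff β _).1 ((isOfFinOrder_of_finite _).mem_powers_iff_mem_zpowers.2 hβ)
      rw [← hk]
      clear hk
      induction k with
      | zero => rw [pow_zero, map_one]; rfl
      | succ j ih => rw [pow_succ', rho_mul, ih, hv])
  exact h4

theorem ward_comm (h : WardHyp p G A) {N : Subgroup X} [hNn : N.Normal] (hNG : N ≤ G)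
    {V : Subgroup X} (hVG : V ≤ G) {r : ℕ} [hr : Fact r.Prime] (hpr : r ≠ p) (hVr : ∀ v ∈ V, v ^ r = 1)
    {A' : Type u} [AddCommGroup A'] [Finite A']
    [Module (ZMod r) A'] (e : V → A') (he1 : e 1 = 0) (hes : Function.Surjective e)
    (ρ : Representation (ZMod r) (X ⧸ N) A')
    (hρ : ∀ (x : X) (v : V), ρ (QuotientGroup.mk' N x) (e v) = e v ↔ x * v = v * x)
    (hfaith : ∀ g ∈ G.map (QuotientGroup.mk' N), ρ g = 1 → g = 1)
    {q s : ℕ} [hqp : Fact q.Prime] [hsp : Fact s.Prime] (hqr : q ≠ r) (hqs : q ≠ s) {Q S : Subgroup (X ⧸ N)}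
    (hQn : Q.Normal) (hQ : IsPGroup q Q) (hQG : Q ≤ G.map (QuotientGroup.mk' N)) (hS : IsPGroup s S)
    (hSG : S ≤ G.map (QuotientGroup.mk' N))
    (hAS : A.map (QuotientGroup.mk' N) ≤ normalizer (S : Set (X ⧸ N))) : S ≤ centralizer (Q : Set (X ⧸ N)) := by
  classical
  have hq := h.quot N hNG
  haveI : FiniteDimensional (ZMod r) A' := Module.Finite.of_finite
  have hpS : ¬ p ∣ Nat.card S := fun hd => hq.not_dvd (hd.trans (Subgroup.card_dvd_of_le hSG))
  have hpQ : ¬ p ∣ Nat.card Q := fun hd => hq.not_dvd (hd.trans (Subgroup.card_dvd_of_le hQG))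
  have hnormQ : ∀ T : Subgroup (X ⧸ N), T ≤ normalizer (Q : Set (X ⧸ N)) := by
    intro T; rw [normalizer_eq_top]; exact le_top
  have h1 : S ⊓ centralizer (Q : Set (X ⧸ N)) = S := by
    apply SigF.eq_of_fixed_le hq.ea hq.card.ge hpS hAS inf_le_left
    intro a ha ha1
    apply le_inf inf_le_left
    have h2 : ∀ g ∈ ⁅Q, S ⊓ centralizer {a}⁆, bc (ZMod r) ρ g = 1 := by
      apply ward_core (p := p) (A := A.map (QuotientGroup.mk' N)) (a := a) hq.ea hq.card ha ha1 (hnormQ _) (hnormQ _)
      · exact Cop.normalizer_inf_centralizer hq.ea.1 hAS (by rintro _ rfl; exact ha)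
      · exact hQ.isNilpotent
      · exact hpQ
      · exact fun hd => hpS (hd.trans (Subgroup.card_dvd_of_le inf_le_left))
      · obtain ⟨n, hn⟩ := IsPGroup.iff_card.1 hQ
        rw [hn, Nat.cast_pow]
        exact pow_ne_zero _ (cast_ne_zero_bc hqp.out hqr.symm)
      · rw [eq_bot_iff, ← hq.fix]
        exact inf_le_inf_right _ hQG
      · rw [eq_bot_iff, ← hq.fix]
        exact inf_le_inf_right _ (inf_le_left.trans hSG)
      · intro x hx
        exact (mem_centralizer_iff.1 hx.2 a rfl).symm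
      · intro g hg hga x hx
        haveI := hq.nilp ha ha1
        have hg' : g ∈ G.map (QuotientGroup.mk' N) ⊓ centralizer {a} := ⟨hQG hg, mem_centralizer_iff.2 (fun y hy => by
          rw [Set.mem_singleton_iff.1 hy]; exact hga.symm)⟩
        have hx' : x ∈ G.map (QuotientGroup.mk' N) ⊓ centralizer {a} := ⟨hSG hx.1, hx.2⟩
        obtain ⟨m, hm⟩ := hQ ⟨g, hg⟩
        obtain ⟨n, hn⟩ := hS ⟨x, hx.1⟩
        have h3 := S0132.commute_of_coprime (x := (⟨x, hx'⟩ : (G.map (QuotientGroup.mk' N) ⊓ centralizer {a} : Subgroup (X ⧸ N))))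
          (y := ⟨g, hg'⟩) (by
          rw [Subgroup.orderOf_mk, Subgroup.orderOf_mk]
          have h4 : orderOf x ∣ s ^ n := orderOf_dvd_of_pow_eq_one (by
            have := congrArg Subtype.val hn; simpa using this)
          have h5 : orderOf g ∣ q ^ m := orderOf_dvd_of_pow_eq_one (by
            have := congrArg Subtype.val hm; simpa using this)
          exact Nat.Coprime.of_dvd h4 h5 (Nat.Coprime.pow _ _ ((Nat.coprime_primes hsp.out hqp.out).2 hqs.symm)))
        exact congrArg Subtype.val h3.eq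
      · exact ward_fix h hNG hVG hpr e he1 hes ρ hρ
      · intro b hb hb1 g hg hgb v hv
        refine ward_fix' h hNG hVG hpr hVr e hes ρ hρ hb hb1 (hQG hg) ?_ hgb v hv
        obtain ⟨m, hm⟩ := hQ ⟨g, hg⟩
        have h5 : orderOf g ∣ q ^ m := orderOf_dvd_of_pow_eq_one (by
            have := congrArg Subtype.val hm; simpa using this)
        exact Nat.Coprime.coprime_dvd_left h5 (Nat.Coprime.pow_left _ ((Nat.coprime_primes hqp.out hr.out).2 hqr))
    rw [Subgroup.le_centralizer_iff, ← Subgroup.commutator_eq_bot_iff_le_centralizer, eq_bot_iff]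
    intro g hg
    rw [Subgroup.mem_bot]
    have hgG : g ∈ G.map (QuotientGroup.mk' N) :=
      hQG ((Subgroup.le_normalizer_iff_commutator_le_left.1 (hnormQ (S ⊓ centralizer {a}))) hg)
    apply hfaith g hgG
    apply LinearMap.ext
    intro v
    have h3 := LinearMap.congr_fun (h2 g hg) ((1 : AlgebraicClosure (ZMod r)) ⊗ₜ[ZMod r] v)
    have h4 : (1 : AlgebraicClosure (ZMod r)) ⊗ₜ[ZMod r] (ρ g v) = (1 : AlgebraicClosure (ZMod r)) ⊗ₜ[ZMod r] v := h3
    exact (Module.FaithfullyFlat.tensorProduct_mk_injective (A := ZMod r) (B := AlgebraicClosure (ZMod r)) A') h4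
  rw [← h1]; exact inf_le_right

theorem ward_step (h : WardHyp p G A) {V : Subgroup X} (hVn : V.Normal) (hVG : V ≤ G) (hV0 : V ≠ ⊥)
    (hmin : ∀ M : Subgroup X, M.Normal → M ≤ V → M = ⊥ ∨ M = V)
    {r : ℕ} [hr : Fact r.Prime] (hVea : IsElementaryAbelian r V)
    {N : Subgroup X} [hNn : N.Normal] (hN : N = G ⊓ centralizer (V : Set X))
    {k l : ℕ} (hkl : ((G.map (QuotientGroup.mk' N)).lowerCentralSeries k).lowerCentralSeries l = ⊥) :
    ∃ m, G.lowerCentralSeries m ≤ centralizer (V : Set X) := by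
  classical
  haveI := h.normal
  have hNG : N ≤ G := by rw [hN]; exact inf_le_left
  have hq := h.quot N hNG
  obtain ⟨π, hπ⟩ : ∃ π : X →* X ⧸ N, π = QuotientGroup.mk' N := ⟨_, rfl⟩
  have hπs : Function.Surjective π := hπ ▸ QuotientGroup.mk'_surjective N
  have hπ1 : ∀ x, π x = 1 ↔ x ∈ N := by
    intro x; rw [hπ, QuotientGroup.mk'_apply, QuotientGroup.eq_one_iff]
  rw [← hπ] at hkl hq
  have hTV : (⊤ : Subgroup X) ≤ normalizer (V : Set X) := by rw [normalizer_eq_top]
  obtain ⟨A', _, _, _, ⟨E⟩⟩ := exists_emod hVea hTV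
  haveI : FiniteDimensional (ZMod r) A' := Module.Finite.of_finite
  let ρX : X →* Module.End (ZMod r) A' := E.ρ.comp (Subgroup.topEquiv.symm : X ≃* (⊤ : Subgroup X)).toMonoidHom
  have hE : ∀ (x : X) (v w : V), (w : X) = x * v * x⁻¹ → E.π w = ρX x (E.π v) := fun x v w hw => E.equiv ⟨x, trivial⟩ v w hw
  have hconj : ∀ (x : X) (v : V), ∃ w : V, (w : X) = x * v * x⁻¹ := fun x v => ⟨⟨_, hVn.conj_mem v v.2 x⟩, rfl⟩
  have hρfix : ∀ (x : X) (v : V), ρX x (E.π v) = E.π v ↔ x * v = v * x := by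
    intro x v
    obtain ⟨w, hw⟩ := hconj x v
    rw [← hE x v w hw]
    constructor
    · intro h1
      have h2 := congrArg Subtype.val (E.bij.1 h1)
      rw [hw, mul_inv_eq_iff_eq_mul] at h2
      exact h2
    · intro h1
      congr 1
      apply Subtype.ext
      rw [hw, h1, mul_inv_cancel_right]
  have hρ1 : ∀ x : X, ρX x = 1 ↔ x ∈ centralizer (V : Set X) := by
    intro x
    rw [mem_centralizer_iff]
    constructor
    · intro h1 v hv
      exact ((hρfix x ⟨v, hv⟩).1 (by rw [h1]; rfl)).symm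
    · intro h1
      apply LinearMap.ext
      intro a
      obtain ⟨v, rfl⟩ := E.bij.2 a
      exact (hρfix x v).2 (h1 v v.2).symm
  obtain ⟨ρH, hρH⟩ : ∃ ρH : Representation (ZMod r) (X ⧸ N) A', ∀ x, ρH (π x) = ρX x :=
    ⟨QuotientGroup.lift N ρX (fun x hx => (hρ1 x).2 (by rw [hN] at hx; exact hx.2)), fun x => by rw [hπ]; rfl⟩
  have hfaith : ∀ g ∈ G.map π, ρH g = 1 → g = 1 := by
    rintro _ ⟨x, hx, rfl⟩ h1
    rw [hρH, hρ1] at h1
    rw [hπ1, hN]
    exact ⟨hx, h1⟩
  obtain ⟨v₁, hv₁⟩ := Subgroup.ne_bot_iff_exists_ne_one.1 hV0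
  have hrV : r ∣ Nat.card G := by
    have h1 : orderOf (v₁ : X) = r := elem_order hVea v₁.2 (fun h => hv₁ (Subtype.ext h))
    rw [← h1]
    exact Subgroup.orderOf_dvd_natCard G (hVG v₁.2)
  have hpr : p ≠ r := by
    rintro rfl
    exact h.not_dvd hrV
  -- irreducibility
  have hirr : ∀ W : Submodule (ZMod r) A', (∀ x, ∀ w ∈ W, ρX x w ∈ W) → W = ⊥ ∨ W = ⊤ := by
    intro W hW
    let M : Subgroup X :=
      { carrier := {x | ∃ hx : x ∈ V, E.π ⟨x, hx⟩ ∈ W}
        one_mem' := ⟨V.one_mem, by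
          have : E.π ⟨1, V.one_mem⟩ = 0 := E.map_one
          rw [this]; exact W.zero_mem⟩
        mul_mem' := by
          rintro a b ⟨ha, ha'⟩ ⟨hb, hb'⟩
          refine ⟨V.mul_mem ha hb, ?_⟩
          have := E.mul ⟨a, ha⟩ ⟨b, hb⟩
          change E.π (⟨a, ha⟩ * ⟨b, hb⟩) ∈ W
          rw [this]; exact W.add_mem ha' hb'
        inv_mem' := by
          rintro a ⟨ha, ha'⟩
          refine ⟨V.inv_mem ha, ?_⟩
          have h1 := E.mul ⟨a, ha⟩ ⟨a, ha⟩⁻¹
          rw [mul_inv_cancel, E.map_one] at h1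
          have h2 : E.π (⟨a, ha⟩⁻¹) = - E.π ⟨a, ha⟩ := eq_neg_of_add_eq_zero_right h1.symm
          change E.π (⟨a, ha⟩⁻¹) ∈ W
          rw [h2]; exact W.neg_mem ha' }
    have hMn : M.Normal := by
      constructor
      rintro a ⟨ha, ha'⟩ x
      refine ⟨hVn.conj_mem a ha x, ?_⟩
      rw [hE x ⟨a, ha⟩ ⟨_, hVn.conj_mem a ha x⟩ rfl]
      exact hW x _ ha'
    rcases hmin M hMn (fun x hx => hx.1) with hM | hM
    · left
      rw [eq_bot_iff]
      intro w hw
      obtain ⟨v, rfl⟩ := E.bij.2 w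
      have h1 : (v : X) ∈ M := ⟨v.2, hw⟩
      rw [hM, Subgroup.mem_bot] at h1
      have h2 : v = 1 := Subtype.ext h1
      rw [h2, E.map_one]; exact Submodule.zero_mem _
    · right
      rw [eq_top_iff]
      intro w _
      obtain ⟨v, rfl⟩ := E.bij.2 w
      have h1 : (v : X) ∈ M := by rw [hM]; exact v.2
      exact h1.2
  -- normal r-subgroups are trivial
  have hrr : ∀ Q : Subgroup (X ⧸ N), Q.Normal → IsPGroup r Q → Q ≤ G.map π → Q = ⊥ := by
    intro Q hQn hQ hQG
    let W : Submodule (ZMod r) A' :=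
      { carrier := {w | ∀ g ∈ Q, ρH g w = w}
        add_mem' := fun {a b} ha hb g hg => by rw [map_add, ha g hg, hb g hg]
        zero_mem' := fun g _ => map_zero _
        smul_mem' := fun c x hx g hg => by rw [map_smul, hx g hg] }
    have hW : ∀ x, ∀ w ∈ W, ρX x w ∈ W := by
      intro x w hw g hg
      have h1 : (π x)⁻¹ * g * π x ∈ Q := by
        have := hQn.conj_mem g hg (π x)⁻¹
        rwa [inv_inv] at this
      have h2 : ρH g (ρX x w) = ρX x (ρH ((π x)⁻¹ * g * π x) w) := by
        rw [← hρH, ← rho_mul, ← rho_mul]; congr 2; group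
      rw [h2, hw _ h1]
    rcases hirr W hW with hW0 | hW1
    · exfalso
      letI : MulAction Q A' :=
        { smul := fun g a => ρH (g : X ⧸ N) a
          one_smul := fun a => by change ρH 1 a = a; rw [map_one]; rfl
          mul_smul := fun g k a => by change ρH ((g : X ⧸ N) * k) a = ρH g (ρH k a); rw [rho_mul] }
      have h1 := hQ.card_modEq_card_fixedPoints A'
      have h2 : Nat.card (MulAction.fixedPoints Q A') = 1 := by
        rw [Nat.card_eq_one_iff_unique]
        refine ⟨⟨?_⟩, ⟨⟨0, fun g => map_zero (ρH (g : X ⧸ N))⟩⟩⟩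
        have key : ∀ a : MulAction.fixedPoints Q A', (a : A') = 0 := by
          rintro ⟨a, ha⟩
          have h3 : a ∈ W := fun g hg => ha ⟨g, hg⟩
          rw [hW0] at h3
          exact h3
        intro a b
        apply Subtype.ext
        rw [key a, key b]
      have h3 : r ∣ Nat.card A' := by
        have h4 : Nat.card V = Nat.card A' := Nat.card_congr (Equiv.ofBijective E.π E.bij)
        rw [← h4]
        have h1 : orderOf (v₁ : X) = r := elem_order hVea v₁.2 (fun h => hv₁ (Subtype.ext h))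
        rw [← h1]
        exact Subgroup.orderOf_dvd_natCard V v₁.2
      rw [h2] at h1
      have h4 := (Nat.modEq_zero_iff_dvd.2 h3).symm.trans h1
      have h5 : r ∣ 1 := (Nat.modEq_zero_iff_dvd).1 h4.symm
      exact hr.out.one_lt.ne' (Nat.dvd_one.1 h5)
    · rw [eq_bot_iff]
      intro g hg
      rw [Subgroup.mem_bot]
      apply hfaith g (hQG hg)
      apply LinearMap.ext
      intro w
      have : w ∈ W := by rw [hW1]; trivial
      exact this g hg
  subst hπ
  have hnormal : ∀ i, ((G.map (QuotientGroup.mk' N)).lowerCentralSeries i).Normal := by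
    intro i
    haveI := hq.normal
    induction i with
    | zero => rw [Subgroup.lowerCentralSeries_zero]; infer_instance
    | succ i ih => rw [Subgroup.lowerCentralSeries_succ]; infer_instance
  have hnil : Group.IsNilpotent (G.map (QuotientGroup.mk' N)) := by
    apply nilpotent_of_commuting k
    · rw [isNilpotent_iff_lowerCentralSeries]
      refine ⟨l, ?_⟩
      rw [← Subgroup.map_eq_bot_iff_of_injective _ (subtype_injective _), map_lowerCentralSeries,
        top_subtype_lowerCentralSeries]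
      exact hkl
    · intro s hs
      obtain ⟨S, hS⟩ := Cop.exists_invariant_sylow (hq.le_norm (A.map (QuotientGroup.mk' N))) hq.cop
        (Or.inl (Cop.isSolvable_of_isMulCommutative hq.ea.1)) s
      refine ⟨S, ?_⟩
      rintro q hqp hqs g hg ⟨n, hn⟩ x hx
      obtain ⟨Kk, hKk⟩ : ∃ Kk, Kk = (G.map (QuotientGroup.mk' N)).lowerCentralSeries k := ⟨_, rfl⟩
      haveI hKn : Kk.Normal := by rw [hKk]; exact hnormal k
      haveI hKnil : Group.IsNilpotent Kk := by
        rw [isNilpotent_iff_lowerCentralSeries]; exact ⟨l, by rw [hKk]; exact hkl⟩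
      have hKG : Kk ≤ G.map (QuotientGroup.mk' N) := by
        rw [hKk]; exact Subgroup.lowerCentralSeries_antitone _ (Nat.zero_le k)
      have hgK : (g : X ⧸ N) ∈ Kk := by
        rw [hKk, ← top_subtype_lowerCentralSeries]
        exact ⟨g, hg, rfl⟩
      obtain ⟨R⟩ : Nonempty (Sylow q Kk) := inferInstance
      have hRn : (R : Subgroup Kk).Normal := inferInstance
      have hRQ : ((R : Subgroup Kk).map Kk.subtype).Normal := by
        haveI : (R : Subgroup Kk).Characteristic := Sylow.characteristic_of_normal R hRn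
        infer_instance
      have hgR : (g : X ⧸ N) ∈ (R : Subgroup Kk).map Kk.subtype := by
        refine ⟨⟨g, hgK⟩, ?_, rfl⟩
        have h1 : IsPGroup q (zpowers (⟨g, hgK⟩ : Kk)) := by
          apply IsPGroup.of_card_dvd_pow (n := n)
          rw [Nat.card_zpowers]
          apply orderOf_dvd_of_pow_eq_one
          apply Subtype.ext
          have h3 := congrArg Subtype.val hn
          simpa using h3
        obtain ⟨P, hP⟩ := h1.exists_le_sylow
        have := Sylow.unique_of_normal R hRn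
        have h2 : P = R := Subsingleton.elim _ _
        rw [← h2]
        exact hP (mem_zpowers _)
      have hRG : (R : Subgroup Kk).map Kk.subtype ≤ G.map (QuotientGroup.mk' N) := (map_subtype_le _).trans hKG
      by_cases hqr : q = r
      · subst hqr
        have h1 := hrr _ hRQ (R.isPGroup'.map _) hRG
        rw [h1, Subgroup.mem_bot] at hgR
        have h2 : g = 1 := Subtype.ext hgR
        rw [h2, mul_one, one_mul]
      · have h1 := ward_comm h hNG hVG hpr.symm hVea.2 E.π E.map_one E.bij.2 ρH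
          (fun x v => by rw [hρH]; exact hρfix x v) hfaith hqr hqs hRQ (R.isPGroup'.map _) hRG
          (S.isPGroup'.map (G.map (QuotientGroup.mk' N)).subtype) (map_subtype_le _) hS
        have h2 := h1 ⟨x, hx, rfl⟩
        exact Subtype.ext (mem_centralizer_iff.1 h2 g hgR).symm
  obtain ⟨m, hm⟩ := (isNilpotent_iff_lowerCentralSeries _).1 hnil
  refine ⟨m, ?_⟩
  rw [← map_lowerCentralSeries, Subgroup.map_eq_bot_iff, QuotientGroup.ker_mk', hN] at hm
  exact hm.trans inf_le_right

omit [Finite X] in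
theorem lcs_mono {S T : Subgroup X} (h : S ≤ T) : ∀ i, S.lowerCentralSeries i ≤ T.lowerCentralSeries i := by
  intro i
  induction i with
  | zero => exact h
  | succ i ih => exact Subgroup.commutator_mono ih h

end Main

theorem ward_main {p : ℕ} [hp : Fact p.Prime] : ∀ (n : ℕ) (X : Type u) [Group X] [Finite X] (G A : Subgroup X),
    Nat.card G = n → WardHyp p G A → ∃ k l, (G.lowerCentralSeries k).lowerCentralSeries l = ⊥ := by
  intro n
  induction n using Nat.strong_induction_on with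
  | _ n ih =>
    intro X _ _ G A hcard h
    classical
    haveI := h.normal
    by_cases hG : G = ⊥
    · exact ⟨0, 0, hG⟩
    -- minimal normal subgroup
    obtain ⟨V, ⟨hVn, hVG, hV0⟩, hVmin⟩ := (wellFounded_lt (α := Subgroup X)).has_min
      {V | V.Normal ∧ V ≤ G ∧ V ≠ ⊥} ⟨G, h.normal, le_rfl, hG⟩
    have hmin : ∀ M : Subgroup X, M.Normal → M ≤ V → M = ⊥ ∨ M = V := by
      intro M hM hMV
      by_cases h0 : M = ⊥
      · exact Or.inl h0
      right
      by_contra hne
      exact hVmin M ⟨hM, hMV.trans hVG, h0⟩ (lt_of_le_of_ne hMV hne)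
    haveI := hVn
    obtain ⟨hVc, r, hr, hVr⟩ := Solv.minimal_normal_of_solvable V (Cop.isSolvable_of_le hVG h.solv) hV0 hmin
    haveI : Fact r.Prime := ⟨hr⟩
    have hquot : ∀ N : Subgroup X, ∀ [hN : N.Normal], N ≤ G → N ≠ ⊥ →
        ∃ k l, ((G.map (QuotientGroup.mk' N)).lowerCentralSeries k).lowerCentralSeries l = ⊥ := by
      intro N _ hNG hN0
      refine ih (Nat.card (G.map (QuotientGroup.mk' N))) ?_ _ _ (A.map (QuotientGroup.mk' N)) rfl (h.quot N hNG)
      rw [← hcard]
      have h1 := Subgroup.relIndex_ker (QuotientGroup.mk' N) (K := G)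
      rw [QuotientGroup.ker_mk'] at h1
      have h2 := Subgroup.relIndex_mul_relIndex ⊥ N G bot_le hNG
      rw [Subgroup.relIndex_bot_left, Subgroup.relIndex_bot_left, h1] at h2
      have h3 : 1 < Nat.card N := by
        rw [Subgroup.one_lt_card_iff_ne_bot]; exact hN0
      have h4 : 0 < Nat.card (G.map (QuotientGroup.mk' N)) := Nat.card_pos
      rw [← h2]
      nlinarith
    obtain ⟨k₁, l₁, h1⟩ := hquot V hVG hV0
    obtain ⟨N, hN⟩ : ∃ N : Subgroup X, N = G ⊓ centralizer (V : Set X) := ⟨_, rfl⟩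
    haveI hNn : N.Normal := by rw [hN]; infer_instance
    have hVN : V ≤ N := by
      rw [hN]
      refine le_inf hVG ?_
      intro v hv
      rw [mem_centralizer_iff]
      intro w hw
      exact congrArg Subtype.val (hVc.is_comm.comm ⟨w, hw⟩ ⟨v, hv⟩)
    have hN0 : N ≠ ⊥ := fun h0 => hV0 (le_bot_iff.1 (h0 ▸ hVN))
    obtain ⟨k₂, l₂, h2⟩ := hquot N (by rw [hN]; exact inf_le_left) hN0
    obtain ⟨m, hm⟩ := ward_step h hVn hVG hV0 hmin ⟨hVc, hVr⟩ hN h2
    refine ⟨max k₁ m, l₁ + 1, ?_⟩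
    rw [← map_lowerCentralSeries, ← map_lowerCentralSeries, Subgroup.map_eq_bot_iff, QuotientGroup.ker_mk'] at h1
    have h3 : (G.lowerCentralSeries (max k₁ m)).lowerCentralSeries l₁ ≤ V :=
      (lcs_mono (Subgroup.lowerCentralSeries_antitone _ (le_max_left _ _)) _).trans h1
    have h4 : G.lowerCentralSeries (max k₁ m) ≤ centralizer (V : Set X) :=
      (Subgroup.lowerCentralSeries_antitone _ (le_max_right _ _)).trans hm
    rw [Subgroup.lowerCentralSeries_succ, Subgroup.commutator_eq_bot_iff_le_centralizer]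
    exact h3.trans (Subgroup.le_centralizer_iff.1 h4)

end Cfsg.Agent.HH
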