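import Mathlib
import Cfsg.Agent.HH.GroupC
import Cfsg.Agent.HH.EMod
import Cfsg.Agent.HH.Frat

set_option autoImplicit false

/-!
Fixed points in the non-exceptional case.
-/

namespace Cfsg.Agent.HH

open Module
open scoped BigOperators commutatorElement TensorProduct

universe u v w

variable {G : Type u} [Group G]

/-- the tautological representation -/
def tautRep {F V : Type*} [Field F] [AddCommGroup V] [Module F V] (H : Subgroup (V ≃ₗ[F] V)) :
    Representation F H V where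
  toFun g := ((g : V ≃ₗ[F] V) : Module.End F V)
  map_one' := rfl
  map_mul' _ _ := rfl

theorem tautRep_injective {F V : Type*} [Field F] [AddCommGroup V] [Module F V] (H : Subgroup (V ≃ₗ[F] V)) :
    Function.Injective (tautRep H) := by
  intro a b hab
  apply Subtype.ext
  apply LinearEquiv.ext
  intro v
  exact congrArg (fun f : Module.End F V => f v) hab

/-- Fixed points, or an exceptional prime. -/
theorem fixed_or_prime [Finite G] {ℓ p : ℕ} [hl : Fact ℓ.Prime] [hp : Fact p.Prime] {A : Type v}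
    [AddCommGroup A] [Module (ZMod ℓ) A] [Finite A] (ρ : Representation (ZMod ℓ) G A) {x : G} {n : ℕ}
    (hx : orderOf x = p ^ n) (L : Subgroup G) (hL : (Nat.card L).Coprime p) (hLl : ¬ ℓ ∣ Nat.card L)
    (hlp : ℓ ≠ p) (hxL : x ∈ Subgroup.normalizer (L : Set G))
    (hnt : ∃ g ∈ ⁅L, Subgroup.zpowers (x ^ p ^ (n - 1))⁆, ρ g ≠ 1) :
    (∀ z : ZMod ℓ, z ^ p ^ n = 1 → ∃ v : A, v ≠ 0 ∧ ρ x v = z • v) ∨
    ∃ (q n₀ b : ℕ), q.Prime ∧ q ∣ Nat.card L ∧ 1 ≤ n₀ ∧ n₀ ≤ n ∧ 1 ≤ b ∧ p ^ n₀ - 1 = q ^ b := by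
  classical
  haveI : FiniteDimensional (ZMod ℓ) A := Module.Finite.of_finite
  set e := toEquiv (F := ZMod ℓ) ρ with he
  set H := e.range with hH
  let e' : G →* H := e.rangeRestrict
  have he's : Function.Surjective e' := e.rangeRestrict_surjective
  haveI : Finite H := Finite.of_surjective e' he's
  have hcoe : ∀ g, tautRep H (e' g) = ρ g := fun _ => rfl
  set x' := e' x with hx'
  have hmapx : ∀ k, e' (x ^ k) = x' ^ k := fun k => map_pow e' x k
  have hx₀ : x' ^ p ^ (n - 1) ≠ 1 := by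
    intro h0
    obtain ⟨g, hg, hg1⟩ := hnt
    apply hg1
    have h1 : ⁅L, Subgroup.zpowers (x ^ p ^ (n - 1))⁆ ≤ e'.ker := by
      rw [Subgroup.commutator_le]
      intro a _ c hc
      obtain ⟨k, rfl⟩ := Subgroup.mem_zpowers_iff.1 hc
      rw [MonoidHom.mem_ker, map_commutatorElement, map_zpow, hmapx, h0, one_zpow]
      exact commutatorElement_one_right _
    have h2 : e' g = 1 := h1 hg
    rw [← hcoe, h2]; rfl
  have hox' : orderOf x' = p ^ n := by
    have h1 : x' ^ p ^ n = 1 := by rw [← hmapx, ← hx, pow_orderOf_eq_one, map_one]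
    rcases Nat.eq_zero_or_pos n with rfl | hn
    · rw [pow_zero, pow_one] at h1
      rw [h1, orderOf_one, pow_zero]
    · obtain ⟨m, rfl⟩ : ∃ m, n = m + 1 := ⟨n - 1, by omega⟩
      rw [Nat.add_sub_cancel] at hx₀
      exact orderOf_eq_prime_pow hx₀ h1
  set L' := L.map e' with hL'
  have hcardL' : Nat.card L' ∣ Nat.card L := Subgroup.card_map_dvd L e'
  have hL'cop : (Nat.card L').Coprime p := Nat.Coprime.coprime_dvd_left hcardL' hL
  have hxL' : x' ∈ Subgroup.normalizer (L' : Set H) :=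
    Subgroup.le_normalizer_map e' ⟨x, hxL, rfl⟩
  have hcomm : ⁅L', Subgroup.zpowers (x' ^ p ^ (n - 1))⁆ ≠ ⊥ := by
    have h1 : Subgroup.zpowers (x' ^ p ^ (n - 1)) = (Subgroup.zpowers (x ^ p ^ (n - 1))).map e' := by
      rw [MonoidHom.map_zpowers, hmapx]
    rw [h1, hL', ← Subgroup.map_commutator]
    intro h0
    obtain ⟨g, hg, hg1⟩ := hnt
    apply hg1
    have h2 : e' g ∈ (⁅L, Subgroup.zpowers (x ^ p ^ (n - 1))⁆).map e' := ⟨g, hg, rfl⟩
    rw [h0, Subgroup.mem_bot] at h2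
    rw [← hcoe, h2]; rfl
  obtain ⟨q, hq, Q, hM⟩ := exists_minQ L' hL'cop hox' hxL' hcomm
  have hqL : q ∣ Nat.card L := by
    have h1 : q ∣ Nat.card Q := by
      haveI : Nontrivial Q := (Subgroup.nontrivial_iff_ne_bot Q).2 hM.nt
      obtain ⟨m, hm0, hm⟩ := (IsPGroup.nontrivial_iff_card hM.isP).1 ‹_›
      rw [hm]; exact dvd_pow_self q hm0.ne'
    exact (h1.trans (Subgroup.card_dvd_of_le hM.le)).trans hcardL'
  have hlq : ℓ ≠ q := by rintro rfl; exact hLl hqL
  have hres := hM.all_or_exc (ρ := bc (ZMod ℓ) (tautRep H)) hox' (cast_ne_zero_bc hq.out hlq)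
    (cast_ne_zero_bc hp.out hlp) (bc_injective _ _ (tautRep_injective H))
  rcases hres with h1 | ⟨W, k₁, n₀, b, U, R, -, -, hE⟩
  · left
    intro z hz
    obtain ⟨v, hv0, hv⟩ := h1 (algebraMap (ZMod ℓ) (AlgebraicClosure (ZMod ℓ)) z) (by rw [← map_pow, hz, map_one])
    obtain ⟨w, hw0, hw⟩ := bc_fixed (ZMod ℓ) (tautRep H) x' z hv0 hv
    exact ⟨w, hw0, hw⟩
  · right
    exact ⟨q, n₀, b, hq.out, hqL, hE.one_le, by have := hE.le; omega, hE.b_pos, hE.eq⟩

end Cfsg.Agent.HH
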