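import Cfsg.Agent.Ree.Link5
import Mathlib.GroupTheory.Perm.Cycle.Type

set_option autoImplicit false
set_option maxHeartbeats 1000000

/-!
Element orders of the group of type G2 over the field with three elements.
-/

namespace Cfsg.Agent.HH.G23

open Matrix Cfsg.Lie Cfsg.Agent.Chev Cfsg.Agent.Ree

/-! ### linear algebra -/

section lin

variable {F V : Type*} [Field F] [Fintype F] [AddCommGroup V] [Module F V] [Module.Finite F V]

open Module LinearMap

/-- counting fixed vectors -/
lemma count_fix (p : ℕ) [Fact p.Prime] (X : V →ₗ[F] V) (hX : X ^ p = 1) (W : Submodule F V) (hW : ∀ w ∈ W, X w ∈ W) :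
    Nat.card W ≡ Nat.card ↥(W ⊓ LinearMap.ker (X - 1)) [MOD p] := by
  classical
  haveI : Finite V := Module.finite_of_finite F
  haveI : Fintype V := Fintype.ofFinite V
  let f : Function.End W := fun w => ⟨X w, hW w w.2⟩
  have hf1 : ∀ (n : ℕ) (w : W), (((f ^ n : Function.End W) w : W) : V) = (X ^ n) (w : V) := by
    intro n
    induction n with
    | zero => intro w; rfl
    | succ n ih =>
      intro w
      rw [pow_succ, pow_succ]
      exact ih (f w)
  have hf : f ^ p ^ 1 = 1 := by
    rw [pow_one]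
    funext w
    apply Subtype.ext
    rw [hf1, hX]
    rfl
  have h := Equiv.Perm.card_fixedPoints_modEq hf
  rw [← Nat.card_eq_fintype_card, ← Nat.card_eq_fintype_card] at h
  refine h.trans ?_
  rw [Nat.ModEq]
  congr 1
  apply Nat.card_congr
  refine ⟨fun w => ⟨w.1, ⟨w.1.2, ?_⟩⟩, fun w => ⟨⟨w.1, w.2.1⟩, ?_⟩, ?_, ?_⟩
  · have := congrArg Subtype.val (w.2 : f w.1 = w.1)
    rw [SetLike.mem_coe, LinearMap.mem_ker, LinearMap.sub_apply, sub_eq_zero]
    exact this
  · have := w.2.2
    rw [SetLike.mem_coe, LinearMap.mem_ker, LinearMap.sub_apply, sub_eq_zero] at this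
    apply Subtype.ext
    exact this
  · intro w; rfl
  · intro w; rfl

variable (hF : Fintype.card F = 3) (hV : finrank F V = 7)
include hF hV

lemma card3 (W : Submodule F V) : Nat.card W = 3 ^ finrank F W := by
  rw [Module.natCard_eq_pow_finrank (K := F), Nat.card_eq_fintype_card, hF]

lemma fr_le (W : Submodule F V) : finrank F W ≤ 7 := by
  rw [← hV]; exact Submodule.finrank_le W

/-- an operator of order 7 has a one-dimensional space of fixed vectors -/
lemma ker_one {X : V →ₗ[F] V} (hX : X ^ 7 = 1) (hX1 : X ≠ 1) : finrank F (LinearMap.ker (X - 1)) = 1 := by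
  haveI : Fact (Nat.Prime 7) := ⟨by norm_num⟩
  have h := count_fix 7 X hX ⊤ (fun _ _ => Submodule.mem_top)
  rw [top_inf_eq, card3 hF hV, card3 hF hV, finrank_top, hV] at h
  have h7 := fr_le hF hV (LinearMap.ker (X - 1))
  have hne : finrank F (LinearMap.ker (X - 1)) ≠ 7 := by
    intro h8
    rw [← hV] at h8
    have h9 := Submodule.eq_top_of_finrank_eq h8
    rw [LinearMap.ker_eq_top, sub_eq_zero] at h9
    exact hX1 h9
  generalize finrank F (LinearMap.ker (X - 1)) = k at *
  interval_cases k
  any_goals exact absurd rfl hne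
  any_goals rfl
  all_goals (exfalso; revert h; decide)

/-- the dimensions of invariant subspaces -/
lemma dims {X : V →ₗ[F] V} (hX : X ^ 7 = 1) (hX1 : X ≠ 1) (W : Submodule F V) (hW : ∀ w ∈ W, X w ∈ W) :
    (W ⊓ LinearMap.ker (X - 1) = ⊥ ∧ (finrank F W = 0 ∨ finrank F W = 6)) ∨ (LinearMap.ker (X - 1) ≤ W ∧ (finrank F W = 1 ∨ finrank F W = 7)) := by
  haveI : Fact (Nat.Prime 7) := ⟨by norm_num⟩
  have h := count_fix 7 X hX W hW
  rw [card3 hF hV, card3 hF hV] at h
  have h1 := ker_one hF hV hX hX1
  have h7 := fr_le hF hV W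
  have h2 : finrank F ↥(W ⊓ LinearMap.ker (X - 1)) ≤ 1 := by
    rw [← h1]; exact Submodule.finrank_mono inf_le_right
  rcases Nat.le_one_iff_eq_zero_or_eq_one.1 h2 with h3 | h3
  · left
    refine ⟨Submodule.finrank_eq_zero.1 h3, ?_⟩
    rw [h3] at h
    generalize finrank F W = k at *
    interval_cases k <;> revert h <;> decide
  · right
    constructor
    · have h4 : W ⊓ LinearMap.ker (X - 1) = LinearMap.ker (X - 1) := by
        apply Submodule.eq_of_le_of_finrank_eq inf_le_right
        rw [h3, h1]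
      rw [← h4]; exact inf_le_left
    · rw [h3] at h
      generalize finrank F W = k at *
      interval_cases k <;> revert h <;> decide

omit [Fintype F] hF hV in
lemma map_ge (f : V →ₗ[F] V) (S : Submodule F V) : finrank F S ≤ finrank F (S.map f) + finrank F (LinearMap.ker f) := by
  have h1 := (f.domRestrict S).finrank_range_add_finrank_ker
  have h2 : LinearMap.range (f.domRestrict S) = S.map f := by
    rw [LinearMap.domRestrict, LinearMap.range_comp, Submodule.range_subtype]
  have h3 : finrank F (LinearMap.ker (f.domRestrict S)) ≤ finrank F (LinearMap.ker f) := by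
    rw [← Submodule.finrank_map_subtype_eq S]
    apply Submodule.finrank_mono
    rintro _ ⟨w, hw, rfl⟩
    exact hw
  rw [h2] at h1
  omega

omit [Module.Finite F V] hV in
lemma three_smul_zero (v : V) : v + v + v = 0 := by
  have h3 : ((3 : ℕ) : F) = 0 := by rw [← hF]; exact Nat.cast_card_eq_zero F
  have : ((3 : ℕ) : F) • v = v + v + v := by
    rw [Nat.cast_smul_eq_nsmul]; abel
  rw [← this, h3, zero_smul]

omit [Fintype F] [Module.Finite F V] hF hV in
lemma ker_inv {X Y : V →ₗ[F] V} (hXY : Commute X Y) : ∀ w ∈ LinearMap.ker Y, X w ∈ LinearMap.ker Y := by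
  intro w hw
  rw [LinearMap.mem_ker] at hw ⊢
  have := congrArg (fun f : V →ₗ[F] V => f w) hXY.eq
  simp only [Module.End.mul_apply] at this
  rw [← this, hw, map_zero]

/-- no commuting element of order three -/
lemma no_three {X Y : V →ₗ[F] V} (hX : X ^ 7 = 1) (hX1 : X ≠ 1) (hY : Y ^ 3 = 1) (hXY : Commute X Y) : Y = 1 := by
  haveI : Fact (Nat.Prime 3) := ⟨by norm_num⟩
  have hN : ∀ v, (Y - 1) ((Y - 1) ((Y - 1) v)) = 0 := by
    intro v
    have h3 : Y (Y (Y v)) = v := by
      have := congrArg (fun f : V →ₗ[F] V => f v) hY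
      simpa [pow_succ] using this
    simp only [LinearMap.sub_apply, Module.End.one_apply, map_sub]
    rw [h3]
    have e1 := three_smul_zero (V := V) hF (Y (Y v))
    have e2 := three_smul_zero (V := V) hF (Y v)
    rw [← sub_eq_zero] at e1 e2 ⊢
    calc _ = (Y v + Y v + Y v - 0) - (Y (Y v) + Y (Y v) + Y (Y v) - 0) := by abel
      _ = 0 := by rw [e1, e2, sub_zero]
  have hd := dims hF hV hX hX1 (LinearMap.ker (Y - 1)) (ker_inv (hXY.sub_right (Commute.one_right X)))
  have hK := ker_one hF hV hX hX1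
  rcases hd with ⟨h1, -⟩ | ⟨-, h1 | h1⟩
  · exfalso
    have h := count_fix 3 Y hY (LinearMap.ker (X - 1)) (ker_inv (hXY.symm.sub_right (Commute.one_right Y)))
    rw [inf_comm, h1, card3 hF hV, hK, card3 hF hV, finrank_bot] at h
    revert h; decide
  · exfalso
    have m1 := map_ge (Y - 1) ⊤
    have m2 := map_ge (Y - 1) (Submodule.map (Y - 1) ⊤)
    have m3 := map_ge (Y - 1) (Submodule.map (Y - 1) (Submodule.map (Y - 1) ⊤))
    have m4 : Submodule.map (Y - 1) (Submodule.map (Y - 1) (Submodule.map (Y - 1) ⊤)) = ⊥ := by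
      rw [eq_bot_iff]
      rintro _ ⟨_, ⟨_, ⟨v, -, rfl⟩, rfl⟩, rfl⟩
      exact (Submodule.mem_bot F).2 (hN v)
    rw [m4, finrank_bot] at m3
    rw [finrank_top, hV] at m1
    rw [h1] at m1 m2 m3
    omega
  · rw [← hV] at h1
    have := Submodule.eq_top_of_finrank_eq h1
    rwa [LinearMap.ker_eq_top, sub_eq_zero] at this

/-- the eigenspaces of an involution -/
lemma eig_two {X Y : V →ₗ[F] V} (hX : X ^ 7 = 1) (hX1 : X ≠ 1) (hY : Y ^ 2 = 1) (hXY : Commute X Y) :
    Y = 1 ∨ Y = -1 ∨ (finrank F (LinearMap.ker (Y - 1)) = 6 ∧ finrank F (LinearMap.ker (Y + 1)) = 1) ∨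
      (finrank F (LinearMap.ker (Y - 1)) = 1 ∧ finrank F (LinearMap.ker (Y + 1)) = 6) := by
  have hYY : ∀ v, Y (Y v) = v := by
    intro v
    have := congrArg (fun f : V →ₗ[F] V => f v) hY
    simpa [pow_succ] using this
  have hr : LinearMap.range (Y - 1) = LinearMap.ker (Y + 1) := by
    apply le_antisymm
    · rintro _ ⟨v, rfl⟩
      simp only [LinearMap.mem_ker, LinearMap.sub_apply, LinearMap.add_apply, Module.End.one_apply, map_sub, hYY]
      abel
    · intro v hv
      rw [LinearMap.mem_ker, LinearMap.add_apply, Module.End.one_apply] at hv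
      refine ⟨v, ?_⟩
      rw [LinearMap.sub_apply, Module.End.one_apply, eq_neg_of_add_eq_zero_left hv, ← sub_eq_zero]
      rw [← neg_eq_zero, ← three_smul_zero (V := V) hF v]
      abel
  have hs := (Y - 1).finrank_range_add_finrank_ker
  rw [hr, hV] at hs
  have hd := dims hF hV hX hX1 (LinearMap.ker (Y - 1)) (ker_inv (hXY.sub_right (Commute.one_right X)))
  have h1 : finrank F (LinearMap.ker (Y - 1)) = 0 ∨ finrank F (LinearMap.ker (Y - 1)) = 6 ∨ finrank F (LinearMap.ker (Y - 1)) = 1 ∨
    finrank F (LinearMap.ker (Y - 1)) = 7 := by tauto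
  rcases h1 with h | h | h | h
  · right; left
    have : finrank F (LinearMap.ker (Y + 1)) = finrank F V := by omega
    have := Submodule.eq_top_of_finrank_eq this
    rw [LinearMap.ker_eq_top] at this
    exact eq_neg_of_add_eq_zero_left this
  · right; right; left; exact ⟨h, by omega⟩
  · right; right; right; exact ⟨h, by omega⟩
  · left
    have : finrank F (LinearMap.ker (Y - 1)) = finrank F V := by omega
    have := Submodule.eq_top_of_finrank_eq this
    rwa [LinearMap.ker_eq_top, sub_eq_zero] at this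

end lin

/-! ### the cross product -/

section crs

variable {K : Type*} [Field K]

lemma crs_add (v w w' : Fin 7 → K) : cross v (w + w') = cross v w + cross v w' := by
  ext i; fin_cases i <;> simp [cross] <;> ring

lemma crs_smul (c : K) (v w : Fin 7 → K) : cross v (c • w) = c • cross v w := by
  ext i; fin_cases i <;> simp [cross] <;> ring

lemma crs_anti (v w : Fin 7 → K) : cross v w = - cross w v := by
  ext i; fin_cases i <;> simp [cross] <;> ring

lemma crs_self (v : Fin 7 → K) : cross v v = 0 := by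
  ext i; fin_cases i <;> simp [cross] <;> ring

/-- the cross product as a linear map -/
def crsL (v : Fin 7 → K) : (Fin 7 → K) →ₗ[K] (Fin 7 → K) where
  toFun := cross v
  map_add' := crs_add v
  map_smul' c w := crs_smul c v w

lemma crs_line {v : Fin 7 → K} (h : ∀ w, ∃ c : K, cross v w = c • v) : v = 0 := by
  have key : ∀ (i j k : Fin 7), (cross v (Pi.single j 1) i = 0) → (cross v (Pi.single j 1) k = v i ∨ cross v (Pi.single j 1) k = - v i) →
      v i = 0 := by
    intro i j k h1 h2
    obtain ⟨c, hc⟩ := h (Pi.single j 1)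
    rw [hc] at h1 h2
    rcases mul_eq_zero.1 (show c * v i = 0 from h1) with h3 | h3
    · rw [h3, zero_smul, Pi.zero_apply] at h2
      rcases h2 with h2 | h2
      · exact h2.symm
      · exact neg_eq_zero.1 h2.symm
    · exact h3
  have h0 : v 0 = 0 := key 0 5 2 (by simp [cross, Pi.single_apply]) (by simp [cross, Pi.single_apply])
  have h1 : v 1 = 0 := key 1 5 3 (by simp [cross, Pi.single_apply]) (by simp [cross, Pi.single_apply])
  have h2 : v 2 = 0 := key 2 1 0 (by simp [cross, Pi.single_apply]) (by simp [cross, Pi.single_apply])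
  have h4 : v 4 = 0 := key 4 0 1 (by simp [cross, Pi.single_apply]) (by simp [cross, Pi.single_apply])
  have h5 : v 5 = 0 := key 5 0 2 (by simp [cross, Pi.single_apply]) (by simp [cross, Pi.single_apply])
  have h6 : v 6 = 0 := key 6 0 3 (by simp [cross, Pi.single_apply]) (by simp [cross, Pi.single_apply])
  have h3 : v 3 = 0 := key 3 0 0 (by simp [cross, Pi.single_apply, h6]) (by simp [cross, Pi.single_apply])
  ext i
  fin_cases i <;> assumption

lemma three_coord (σ : Fin 3 → Fin 7) (hσ : Function.Injective σ) (f : (Fin 7 → K) →ₗ[K] (Fin 7 → K))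
    (h : ∀ u, f u = 0 → ∀ i, u (σ i) = 0) : Module.finrank K (LinearMap.ker f) ≤ 4 := by
  have h1 : LinearMap.ker f ≤ LinearMap.ker (LinearMap.funLeft K K σ) := by
    intro u hu
    rw [LinearMap.mem_ker] at hu ⊢
    ext i
    exact h u hu i
  refine (Submodule.finrank_mono h1).trans ?_
  have h2 := (LinearMap.funLeft K K σ).finrank_range_add_finrank_ker
  rw [LinearMap.range_eq_top.2 (LinearMap.funLeft_surjective_of_injective K K σ hσ), finrank_top, Module.finrank_fin_fun, Module.finrank_fin_fun] at h2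
  omega

variable [Fintype K] (hK : Fintype.card K = 3)
include hK

/-- no commuting involution -/
lemma no_two {X Y : (Fin 7 → K) →ₗ[K] (Fin 7 → K)} (hX : X ^ 7 = 1) (hX1 : X ≠ 1) (hY : Y ^ 2 = 1) (hXY : Commute X Y)
    (hc : ∀ v w, cross (Y v) (Y w) = Y (cross v w)) : Y = 1 := by
  have h3 : (3 : K) = 0 := by
    have := Nat.cast_card_eq_zero K
    rw [hK] at this
    exact_mod_cast this
  have hV : Module.finrank K (Fin 7 → K) = 7 := Module.finrank_fin_fun K
  have hYY : ∀ v, Y (Y v) = v := by
    intro v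
    have := congrArg (fun f : (Fin 7 → K) →ₗ[K] (Fin 7 → K) => f v) hY
    simpa [pow_succ] using this
  have mp : ∀ v, v ∈ LinearMap.ker (Y - 1) ↔ Y v = v := by
    intro v; rw [LinearMap.mem_ker, LinearMap.sub_apply, Module.End.one_apply, sub_eq_zero]
  have mm : ∀ v, v ∈ LinearMap.ker (Y + 1) ↔ Y v = -v := by
    intro v; rw [LinearMap.mem_ker, LinearMap.add_apply, Module.End.one_apply, add_eq_zero_iff_eq_neg]
  rcases eig_two hK hV hX hX1 hY hXY with h | h | ⟨h1, h2⟩ | ⟨h1, h2⟩
  · exact h
  · exfalso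
    have := congrFun (hc (Pi.single 0 1) (Pi.single 3 1)) 0
    rw [h] at this
    simp [cross, Pi.single_apply] at this
    exact one_ne_zero (show (1 : K) = 0 by linear_combination h3 + this)
  · exfalso
    obtain ⟨⟨v, hv⟩, hv0, hv1⟩ := finrank_eq_one_iff'.1 h2
    have hv2 : v ≠ 0 := fun h => hv0 (Subtype.ext h)
    have hv3 := (mm v).1 hv
    apply hv2
    apply crs_line
    intro w
    obtain ⟨c, hc1⟩ := hv1 ⟨w - Y w, (mm _).2 (by rw [map_sub, hYY]; abel)⟩
    have hc2 : c • v = w - Y w := congrArg Subtype.val hc1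
    have e : cross v w = - (cross v (w + Y w)) - cross v (w - Y w) := by
      rw [crs_add, sub_eq_add_neg w, crs_add, ← neg_one_smul K (Y w), crs_smul]
      ext i
      simp only [Pi.sub_apply, Pi.neg_apply, Pi.add_apply, Pi.smul_apply, smul_eq_mul]
      linear_combination (cross v w i) * h3
    rw [← hc2, crs_smul, crs_self, smul_zero, sub_zero] at e
    have hm : cross v (w + Y w) ∈ LinearMap.ker (Y + 1) := by
      rw [mm, ← hc, hv3, map_add, hYY, crs_anti, crs_anti v, ← neg_one_smul K v, crs_smul, add_comm w]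
      simp
    obtain ⟨d, hd⟩ := hv1 ⟨_, hm⟩
    have hd2 : d • v = cross v (w + Y w) := congrArg Subtype.val hd
    exact ⟨-d, by rw [e, ← hd2, neg_smul]⟩
  · exfalso
    obtain ⟨⟨p, hp⟩, hp0, hp1⟩ := finrank_eq_one_iff'.1 h1
    have hq : ∀ u, ∃ c : K, c • p = Y u + u := by
      intro u
      obtain ⟨c, hc1⟩ := hp1 ⟨Y u + u, (mp _).2 (by rw [map_add, hYY]; abel)⟩
      exact ⟨c, congrArg Subtype.val hc1⟩
    obtain ⟨α, hα⟩ := hq (Pi.single 0 1)
    obtain ⟨β, hβ⟩ := hq (Pi.single 6 1)
    obtain ⟨a, b, hab, hw⟩ : ∃ a b : K, (a ≠ 0 ∨ b ≠ 0) ∧ a • (Pi.single 0 1 : Fin 7 → K) + b • (Pi.single 6 1 : Fin 7 → K) ∈ LinearMap.ker (Y + 1) := by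
      by_cases hα0 : α = 0
      · refine ⟨1, 0, Or.inl one_ne_zero, ?_⟩
        rw [mm, one_smul, zero_smul, add_zero]
        rw [hα0, zero_smul] at hα
        exact eq_neg_of_add_eq_zero_left hα.symm
      · refine ⟨β, -α, Or.inr (neg_ne_zero.2 hα0), ?_⟩
        rw [LinearMap.mem_ker, LinearMap.add_apply, Module.End.one_apply, map_add, map_smul, map_smul]
        calc _ = β • (Y (Pi.single 0 1) + Pi.single 0 1) - α • (Y (Pi.single 6 1) + Pi.single 6 1) := by
              simp only [smul_add, neg_smul]; abel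
          _ = 0 := by rw [← hα, ← hβ, smul_smul, smul_smul, mul_comm, sub_self]
    set w : Fin 7 → K := a • (Pi.single 0 1 : Fin 7 → K) + b • (Pi.single 6 1 : Fin 7 → K) with hwd
    have hw3 := (mm w).1 hw
    have m1 := map_ge (crsL w) (LinearMap.ker (Y + 1))
    have m2 : Module.finrank K ((LinearMap.ker (Y + 1)).map (crsL w)) ≤ 1 := by
      rw [← h1]
      apply Submodule.finrank_mono
      rintro _ ⟨u, hu, rfl⟩
      have hu2 := (mm u).1 hu
      change cross w u ∈ _
      rw [mp, ← hc, hw3, hu2, crs_anti, ← neg_one_smul K w, crs_smul, crs_anti, ← neg_one_smul K u, crs_smul]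
      simp
    have m3 : Module.finrank K (LinearMap.ker (crsL w)) ≤ 4 := by
      rcases hab with ha | hb
      · apply three_coord ![3, 4, 5] (by decide)
        intro u hu i
        have u0 := congrFun hu 0
        have u1 := congrFun hu 1
        have u2 := congrFun hu 2
        simp [crsL, cross, hwd, Pi.single_apply, ha] at u0 u1 u2
        fin_cases i <;> simp [u0, u1, u2]
      · apply three_coord ![1, 2, 3] (by decide)
        intro u hu i
        have u0 := congrFun hu 4
        have u1 := congrFun hu 5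
        have u2 := congrFun hu 6
        simp [crsL, cross, hwd, Pi.single_apply, hb] at u0 u1 u2
        fin_cases i <;> simp [u0, u1, u2]
    omega

end crs

end Cfsg.Agent.HH.G23
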