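import Cfsg.Agent.HH.G2Three
import Cfsg.Agent.Chev.Graph
import Mathlib.GroupTheory.SpecificGroups.Cyclic
import Mathlib.GroupTheory.Sylow

set_option autoImplicit false
set_option maxHeartbeats 1000000

/-!
Element orders of the group of type G2 over the field with three elements.
-/

namespace Cfsg.Agent.HH.G23

open Matrix Cfsg.Lie Cfsg.Agent.Chev Cfsg.Agent.Ree

variable {K : Type*} [Field K]

lemma group_le (h3 : (3 : K) = 0) : chevG2.group K ≤ im CG := by
  unfold ChevalleyDatum.group
  rw [Subgroup.closure_le]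
  rintro M ⟨r, t, hM⟩
  refine ⟨arU r.val t, Crs_ar h3 r.2 t, ?_⟩
  have e : chevG2.x K r.val t = chevG2.xMat K r t := by
    unfold ChevalleyDatum.x
    rw [dif_pos r.2]
  rw [hM, ← e]
  exact rel_x r.2 t

section hom
variable (h3 : (3 : K) = 0)
include h3

/-- the 7-dimensional representation -/
noncomputable def rep : chevG2.group K →* GL (Fin 7) K where
  toFun g := (mem_im.1 (group_le h3 g.2)).choose
  map_one' := by
    have h := (mem_im.1 (group_le h3 (1 : chevG2.group K).2)).choose_spec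
    exact Rel.unique' (M := 1) h3 h.2 (by simpa using Rel.one) h.1 (by simpa using Crs.one)
  map_mul' a b := by
    have h := (mem_im.1 (group_le h3 (a * b).2)).choose_spec
    have ha := (mem_im.1 (group_le h3 a.2)).choose_spec
    have hb := (mem_im.1 (group_le h3 b.2)).choose_spec
    exact Rel.unique' (M := (a : GL chevG2.Idx K) * b) h3 h.2 (ha.2.mul hb.2) h.1 (mul_mem ha.1 hb.1 : _ ∈ CG)

lemma rep_crs (g : chevG2.group K) : Crs (rep h3 g : Matrix (Fin 7) (Fin 7) K) :=
  (mem_im.1 (group_le h3 g.2)).choose_spec.1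

lemma rep_rel (g : chevG2.group K) : Rel (rep h3 g : Matrix (Fin 7) (Fin 7) K) (g : GL chevG2.Idx K) :=
  (mem_im.1 (group_le h3 g.2)).choose_spec.2

lemma rep_inj : Function.Injective (rep h3) := by
  intro a b hab
  have ha := rep_rel h3 a
  rw [hab] at ha
  exact Subtype.ext (Units.ext (Rel.unique ha (rep_rel h3 b)))

lemma rep_eq {g : chevG2.group K} {G : GL (Fin 7) K} (hc : Crs (G : Matrix (Fin 7) (Fin 7) K))
    (hr : Rel (G : Matrix (Fin 7) (Fin 7) K) (g : GL chevG2.Idx K)) : rep h3 g = G :=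
  Rel.unique' h3 (rep_rel h3 g) hr (rep_crs h3 g) hc

end hom

/-- the root elements of the group -/
noncomputable def xg (r : ℕ) (t : K) : chevG2.group K :=
  ⟨xU good2_G2 r t, mem_group_of_x (r := r) (t := t) rfl⟩

lemma rep_xg (h3 : (3 : K) = 0) {r : ℕ} (hr : r < 12) (t : K) : rep h3 (xg r t) = arU r t :=
  rep_eq h3 (Crs_ar h3 hr t) (rel_x hr t)

/-- the diagonal involution -/
def bd : GL (Fin 7) K := ⟨Matrix.diagonal ![-1, -1, 1, 1, 1, -1, -1], Matrix.diagonal ![-1, -1, 1, 1, 1, -1, -1], by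
  rw [Matrix.diagonal_mul_diagonal, ← Matrix.diagonal_one]; congr 1; ext i; fin_cases i <;> simp, by
  rw [Matrix.diagonal_mul_diagonal, ← Matrix.diagonal_one]; congr 1; ext i; fin_cases i <;> simp⟩

lemma bd_mulVec (v : Fin 7 → K) : ((bd : GL (Fin 7) K) : Matrix (Fin 7) (Fin 7) K) *ᵥ v = ![-v 0, -v 1, v 2, v 3, v 4, -v 5, -v 6] := by
  ext i
  change (Matrix.diagonal _ *ᵥ v) i = _
  rw [Matrix.mulVec_diagonal]
  fin_cases i <;> simp

lemma bd_eq : (nr7 7 * nr7 7 : GL (Fin 7) K) = bd := by
  apply Units.ext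
  apply mat_ext
  intro v
  rw [bd_mulVec]
  simp only [nr7, Units.val_mul, arU_coe, ← Matrix.mulVec_mulVec]
  rw [ar_mulVec (by norm_num), ar_mulVec (by norm_num), ar_mulVec (by norm_num), ar_mulVec (by norm_num), ar_mulVec (by norm_num), ar_mulVec (by norm_num)]
  ext i
  fin_cases i <;> simp [arv] <;> ring

lemma two_ne' (h3 : (3 : K) = 0) : (2 : K) ≠ 0 := by
  intro h
  have : (1 : K) = 0 := by linear_combination h3 - h
  exact one_ne_zero this

/-- an element of order six -/
theorem exists_six (h3 : (3 : K) = 0) : ∃ x : chevG2.group K, orderOf x = 2 * 3 := by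
  have h2 := two_ne' h3
  refine ⟨(xg 7 1 * xg 4 (-1) * xg 7 1) * (xg 7 1 * xg 4 (-1) * xg 7 1) * xg 11 1, ?_⟩
  rw [← orderOf_injective (rep h3) (rep_inj h3)]
  have e : rep h3 ((xg 7 1 * xg 4 (-1) * xg 7 1) * (xg 7 1 * xg 4 (-1) * xg 7 1) * xg 11 1) = bd * arU 11 1 := by
    simp only [map_mul, rep_xg h3 (show 7 < 12 by norm_num), rep_xg h3 (show 4 < 12 by norm_num), rep_xg h3 (show 11 < 12 by norm_num)]
    rw [← bd_eq]; rfl
  rw [e]
  have hc : Commute (bd : GL (Fin 7) K) (arU 11 1) := by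
    apply Units.ext
    apply mat_ext
    intro v
    rw [Units.val_mul, Units.val_mul, ← Matrix.mulVec_mulVec, ← Matrix.mulVec_mulVec, arU_coe, ar_mulVec (by norm_num),
      ar_mulVec (by norm_num), bd_mulVec, bd_mulVec]
    ext i
    fin_cases i <;> simp [arv] <;> ring
  have hb : orderOf (bd : GL (Fin 7) K) = 2 := by
    apply orderOf_eq_prime
    · apply Units.ext
      apply mat_ext
      intro v
      rw [pow_two, Units.val_mul, ← Matrix.mulVec_mulVec, bd_mulVec, bd_mulVec, Units.val_one, Matrix.one_mulVec]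
      ext i
      fin_cases i <;> simp
    · intro h
      have h5 : ((bd : GL (Fin 7) K) : Matrix (Fin 7) (Fin 7) K) *ᵥ (Pi.single 0 1) = Pi.single 0 1 := by rw [h, Units.val_one, Matrix.one_mulVec]
      rw [bd_mulVec] at h5
      have := congrFun h5 0
      simp at this
      apply h2
      linear_combination -this
  have ha : orderOf (arU 11 1 : GL (Fin 7) K) = 3 := by
    haveI : Fact (Nat.Prime 3) := ⟨by norm_num⟩
    apply orderOf_eq_prime
    · apply Units.ext
      apply mat_ext
      intro v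
      rw [pow_succ, pow_two, Units.val_mul, Units.val_mul, ← Matrix.mulVec_mulVec, ← Matrix.mulVec_mulVec, arU_coe,
        ar_mulVec (by norm_num), ar_mulVec (by norm_num), ar_mulVec (by norm_num), Units.val_one, Matrix.one_mulVec]
      ext i
      fin_cases i <;> simp [arv]
      · linear_combination (-v 5) * h3
      · linear_combination (v 6) * h3
    · intro h
      have h5 : ((arU 11 1 : GL (Fin 7) K) : Matrix (Fin 7) (Fin 7) K) *ᵥ (Pi.single 5 1) = Pi.single 5 1 := by rw [h, Units.val_one, Matrix.one_mulVec]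
      rw [arU_coe, ar_mulVec (by norm_num)] at h5
      have := congrFun h5 0
      simp [arv] at this
  rw [hc.orderOf_mul_eq_mul_orderOf_of_coprime (by rw [ha, hb]; norm_num), ha, hb]

section big

variable [Fintype K] (hK : Fintype.card K = 3)
include hK

lemma three_zero : (3 : K) = 0 := by
  have := Nat.cast_card_eq_zero K
  rw [hK] at this
  exact_mod_cast this

/-- the operators of commuting elements -/
lemma comm_seven {x y : chevG2.group K} (hx : orderOf x = 7) (hxy : Commute x y) (hy : y ^ 2 = 1 ∨ y ^ 3 = 1) : y = 1 := by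
  have h3 := three_zero hK
  have hV : Module.finrank K (Fin 7 → K) = 7 := Module.finrank_fin_fun K
  let ρ : chevG2.group K →* ((Fin 7 → K) →ₗ[K] (Fin 7 → K)) :=
    ((Matrix.toLinAlgEquiv' : Matrix (Fin 7) (Fin 7) K ≃ₐ[K] _).toAlgHom : Matrix (Fin 7) (Fin 7) K →* _).comp
      ((Units.coeHom (Matrix (Fin 7) (Fin 7) K)).comp (rep h3))
  have hρ : Function.Injective ρ := by
    intro a b hab
    apply rep_inj h3
    apply Units.ext
    exact (Matrix.toLinAlgEquiv' : Matrix (Fin 7) (Fin 7) K ≃ₐ[K] _).injective hab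
  have hρ2 : ∀ g v, ρ g v = (rep h3 g : Matrix (Fin 7) (Fin 7) K) *ᵥ v := fun g v => rfl
  have hX : ρ x ^ 7 = 1 := by
    have h7 : x ^ 7 = 1 := by rw [← hx, pow_orderOf_eq_one]
    rw [← map_pow, h7, map_one]
  have hX1 : ρ x ≠ 1 := by
    rw [← map_one ρ]
    intro h
    rw [hρ h, orderOf_one] at hx
    omega
  have hc : Commute (ρ x) (ρ y) := hxy.map ρ
  apply hρ
  rw [map_one]
  rcases hy with hy | hy
  · apply no_two hK hX hX1 (by rw [← map_pow, hy, map_one]) hc
    intro v w
    rw [hρ2, hρ2, hρ2]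
    exact rep_crs h3 y v w
  · exact no_three hK hV hX hX1 (by rw [← map_pow, hy, map_one]) hc

lemma no_seven {x : chevG2.group K} {s : ℕ} (hs : s = 2 ∨ s = 3) : orderOf x ≠ 7 * s := by
  intro h
  have h1 : orderOf (x ^ s) = 7 := by
    rw [orderOf_pow' x (by omega), h]
    rcases hs with rfl | rfl <;> norm_num
  have h2 : orderOf (x ^ 7) = s := by
    rw [orderOf_pow' x (by omega), h]
    rcases hs with rfl | rfl <;> norm_num
  have h3 := comm_seven hK h1 (((Commute.refl x).pow_left s).pow_right 7) (by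
    rcases hs with rfl | rfl
    · left; rw [← h2, pow_orderOf_eq_one]
    · right; rw [← h2, pow_orderOf_eq_one])
  rw [h3, orderOf_one] at h2
  omega

end big

/-- elements of order thirteen have centralizer of order thirteen -/
lemma self_cent {G : Type*} [Group G] [Finite G] {p : ℕ} [Fact p.Prime] (hp : (Nat.card G).factorization p = 1) (H : Subgroup G)
    [IsCyclic H] (hH : Nat.card H = p) (hc : Subgroup.centralizer (H : Set G) = H) {x : G} {s : ℕ} (hs : s.Prime) : orderOf x ≠ p * s := by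
  intro h
  have hpp : p.Prime := Fact.out
  let Q : Sylow p G := Sylow.ofCard H (by rw [hp, pow_one, hH])
  have h1 : orderOf (x ^ s) = p := by
    rw [orderOf_pow' x hs.pos.ne', h, Nat.gcd_eq_right (Dvd.intro_left p rfl), Nat.mul_div_cancel _ hs.pos]
  have hz : IsPGroup p (Subgroup.zpowers (x ^ s)) := IsPGroup.of_card (n := 1) (by rw [Nat.card_zpowers, h1, pow_one])
  obtain ⟨P, hP⟩ := hz.exists_le_sylow
  obtain ⟨g, hg⟩ := MulAction.exists_smul_eq G P Q
  have h2 : g * x ^ s * g⁻¹ ∈ H := by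
    have : g * x ^ s * g⁻¹ ∈ (g • P : Sylow p G) := by
      rw [← SetLike.mem_coe, Sylow.coe_smul, Set.mem_smul_set]
      exact ⟨x ^ s, hP (Subgroup.mem_zpowers _), rfl⟩
    rw [hg] at this
    exact this
  set y := g * x * g⁻¹ with hy
  have h3 : orderOf y = p * s := by
    rw [hy, ← h]
    exact (MulAut.conj g).orderOf_eq x
  have h4 : y ^ s ∈ H := by rw [hy, conj_pow]; exact h2
  have h5 : orderOf (y ^ s) = p := by
    rw [orderOf_pow' y hs.pos.ne', h3, Nat.gcd_eq_right (Dvd.intro_left p rfl), Nat.mul_div_cancel _ hs.pos]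
  have h6 : Subgroup.zpowers (y ^ s) = H := by
    apply Subgroup.eq_of_le_of_card_ge
    · rw [Subgroup.zpowers_le]; exact h4
    · rw [Nat.card_zpowers, h5, hH]
  have h7 : y ∈ H := by
    rw [← hc, Subgroup.mem_centralizer_iff]
    intro k hk
    rw [← h6] at hk
    obtain ⟨n, rfl⟩ := Subgroup.mem_zpowers_iff.1 hk
    exact ((Commute.refl y).pow_left s).zpow_left n
  have h8 : orderOf y ∣ Nat.card H := Subgroup.orderOf_dvd_natCard H h7
  rw [h3, hH] at h8
  have := Nat.le_of_dvd hpp.pos h8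
  have := hs.two_le
  nlinarith [hpp.pos]

end Cfsg.Agent.HH.G23
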